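import Cfsg.Agent.OddOrderCharacters.Clifford
import Cfsg.Agent.OddOrderCharacters.IndRes
import Cfsg.Agent.OddOrderCharacters.FeitCoherence
import Cfsg.Agent.OddOrderCharacters.VirtualNormTwo

/-!
# Generalised characters from families on a set with a group action (helper739)

`gen_family`: `s ↦ ∑ c s ω`, the sum over the fixed points of `s`.
-/

set_option autoImplicit false

namespace Cfsg.Agent.H739.PQ.E7

open Cfsg

universe u v

/-- the sum over an orbit -/
theorem sum_orbit {Γ : Type u} [Group Γ] [Fintype Γ] {Ω : Type v} [MulAction Γ Ω] [Fintype Ω] [DecidableEq Ω]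
    [DecidableEq (MulAction.orbitRel.Quotient Γ Ω)] (ω₀ : Ω) (h : Ω → ℂ) :
    ∑ x : Γ, h (x • ω₀) = Nat.card (MulAction.stabilizer Γ ω₀) *
      ∑ ω ∈ Finset.univ.filter (fun ω : Ω => (Quotient.mk'' ω : MulAction.orbitRel.Quotient Γ Ω) = Quotient.mk'' ω₀),
        h ω := by
  classical
  have hs : ∀ x ∈ (Finset.univ : Finset Γ), x • ω₀ ∈ Finset.univ.filter
      (fun ω : Ω => (Quotient.mk'' ω : MulAction.orbitRel.Quotient Γ Ω) = Quotient.mk'' ω₀) := by
    intro x _
    rw [Finset.mem_filter]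
    refine ⟨Finset.mem_univ _, ?_⟩
    exact Quotient.sound' ⟨x, rfl⟩
  rw [← Finset.sum_fiberwise_of_maps_to hs, Finset.mul_sum]
  refine Finset.sum_congr rfl fun ω hω => ?_
  rw [Finset.mem_filter] at hω
  obtain ⟨x₀, hx₀⟩ : ω ∈ MulAction.orbit Γ ω₀ := MulAction.orbitRel_apply.1 (Quotient.exact' hω.2)
  have h1 : ∀ x ∈ Finset.univ.filter (fun x : Γ => x • ω₀ = ω), h (x • ω₀) = h ω := by
    intro x hx
    rw [(Finset.mem_filter.1 hx).2]
  rw [Finset.sum_congr rfl h1, Finset.sum_const, nsmul_eq_mul]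
  congr 1
  rw [Nat.card_eq_fintype_card, Nat.cast_inj]
  symm
  refine Finset.card_bij (fun (s : MulAction.stabilizer Γ ω₀) _ => x₀ * (s : Γ)) ?_ ?_ ?_
  · intro s _
    rw [Finset.mem_filter]
    refine ⟨Finset.mem_univ _, ?_⟩
    rw [mul_smul, s.2]
    exact hx₀
  · intro s _ t _ hst
    exact Subtype.ext (mul_left_cancel hst)
  · intro x hx
    rw [Finset.mem_filter] at hx
    refine ⟨⟨x₀⁻¹ * x, ?_⟩, Finset.mem_univ _, mul_inv_cancel_left _ _⟩
    rw [MulAction.mem_stabilizer_iff, mul_smul, hx.2, ← hx₀]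
    exact inv_smul_smul _ _

theorem gen_family_aux {Γ : Type u} [Group Γ] [Fintype Γ] {Ω : Type v} [MulAction Γ Ω] [Fintype Ω] [DecidableEq Ω]
    (c : Γ → Ω → ℂ)
    (hc : ∀ (ω : Ω) (S : Subgroup Γ), (∀ s ∈ S, s • ω = ω) → IsGeneralizedCharacter S (fun s => c s ω))
    (he : ∀ s t ω, c (t * s * t⁻¹) (t • ω) = c s ω) :
    IsGeneralizedCharacter Γ (fun s => ∑ ω : Ω, if s • ω = ω then c s ω else 0) := by
  classical
  have h1 : (fun s => ∑ ω : Ω, if s • ω = ω then c s ω else 0) =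
      ∑ o : MulAction.orbitRel.Quotient Γ Ω, indFun (MulAction.stabilizer Γ o.out) (fun s => c s o.out) := by
    funext s
    rw [Finset.sum_apply, ← Finset.sum_fiberwise Finset.univ
      (fun ω : Ω => (Quotient.mk'' ω : MulAction.orbitRel.Quotient Γ Ω))]
    refine Finset.sum_congr rfl fun o _ => ?_
    have h2 := sum_orbit (Γ := Γ) o.out (fun ω => if s • ω = ω then c s ω else 0)
    have h3 : (Quotient.mk'' o.out : MulAction.orbitRel.Quotient Γ Ω) = o := Quotient.out_eq' o
    rw [h3] at h2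
    rw [indFun]
    have h4 : ∀ x : Γ, extendByZero (MulAction.stabilizer Γ o.out) (fun s => c s o.out) (x⁻¹ * s * x) =
        if s • (x • o.out) = x • o.out then c s (x • o.out) else 0 := by
      intro x
      have h5 : x⁻¹ * s * x ∈ MulAction.stabilizer Γ o.out ↔ s • (x • o.out) = x • o.out := by
        rw [MulAction.mem_stabilizer_iff, mul_smul, mul_smul, inv_smul_eq_iff]
      by_cases h6 : s • (x • o.out) = x • o.out
      · rw [if_pos h6, Cfsg.Agent.OddOrderCharacters.Clifford.ext_apply_mem _ _ _ (h5.2 h6)]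
        have h7 := he (x⁻¹ * s * x) x o.out
        have h8 : x * (x⁻¹ * s * x) * x⁻¹ = s := by group
        rw [h8] at h7
        exact h7.symm
      · rw [if_neg h6, Cfsg.Agent.OddOrderCharacters.Clifford.ext_apply_not_mem _ _ _ (fun h => h6 (h5.1 h))]
    rw [Finset.sum_congr rfl fun x _ => h4 x, h2, ← mul_assoc, inv_mul_cancel₀, one_mul]
    exact Nat.cast_ne_zero.2 Nat.card_pos.ne'
  rw [h1]
  refine Cfsg.Agent.OddOrderCharacters.FeitCoherence.isGen_sum _ fun o _ => ?_
  have : Fintype (MulAction.stabilizer Γ o.out) := Fintype.ofFinite _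
  exact Cfsg.Agent.OddOrderCharacters.IndRes.isGeneralizedCharacter_indFun _ (hc _ _ fun s hs => hs)

/-- **families** -/
theorem gen_family {Γ : Type u} [Group Γ] [Finite Γ] {Ω : Type v} [Finite Ω] (a : Γ →* Equiv.Perm Ω) (c : Γ → Ω → ℂ)
    (hc : ∀ (ω : Ω) (S : Subgroup Γ), (∀ s ∈ S, a s ω = ω) → IsGeneralizedCharacter S (fun s => c s ω))
    (he : ∀ s t ω, c (t * s * t⁻¹) (a t ω) = c s ω) :
    IsGeneralizedCharacter Γ (fun s => ∑ᶠ ω : Ω, open Classical in if a s ω = ω then c s ω else 0) := by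
  classical
  have := Fintype.ofFinite Γ
  have := Fintype.ofFinite Ω
  let _ : MulAction Γ Ω := MulAction.compHom Ω a
  have h1 := gen_family_aux (Γ := Γ) (Ω := Ω) c hc he
  have h2 : (fun s => ∑ᶠ ω : Ω, open Classical in if a s ω = ω then c s ω else 0) =
      (fun s => ∑ ω : Ω, if s • ω = ω then c s ω else 0) := by
    funext s
    rw [finsum_eq_sum_of_fintype]
    rfl
  rw [h2]
  exact h1

end Cfsg.Agent.H739.PQ.E7
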