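import Cfsg.Agent.H739.PQ.E7.Cusp
import Cfsg.Agent.H739.PQ.E7.Gen

/-!
# `b`: generalised character, mean value (helper739)

* `gen_b` : `s ↦ b (r s) W` is a generalised character of a group stabilising `W`;
* `avg_b` : its mean value is `1` if the group induces all isomorphisms between proper subspaces of `W`.
-/

set_option autoImplicit false

namespace Cfsg.Agent.H739.PQ.E7

open Module Cfsg

universe u v

variable {K : Type*} {V : Type v} [Field K] [AddCommGroup V] [Module K V] [Finite V]

omit [Finite V] in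
theorem map_map (g h : V ≃ₗ[K] V) (W : Submodule K V) :
    (W.map (h : V →ₗ[K] V)).map (g : V →ₗ[K] V) = W.map ((g * h : V ≃ₗ[K] V) : V →ₗ[K] V) := by
  rw [← Submodule.map_comp]
  rfl

theorem inv_iff_map {g : V ≃ₗ[K] V} {W : Submodule K V} : Inv (g : End K V) W ↔ W.map (g : V →ₗ[K] V) = W := by
  constructor
  · intro h
    apply le_antisymm
    · rintro _ ⟨v, hv, rfl⟩
      exact h v hv
    · intro v hv
      refine ⟨g.symm v, ?_, g.apply_symm_apply v⟩
      show g.symm v ∈ W
      rw [← map_mem_iff h, g.apply_symm_apply]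
      exact hv
  · intro h v hv
    rw [← h]
    exact ⟨v, hv, rfl⟩

/-- the action on the subspaces -/
def subPerm : (V ≃ₗ[K] V) →* Equiv.Perm (Submodule K V) where
  toFun g := ⟨fun W => W.map (g : V →ₗ[K] V), fun W => W.map ((g⁻¹ : V ≃ₗ[K] V) : V →ₗ[K] V),
    fun W => by
      show (W.map (g : V →ₗ[K] V)).map ((g⁻¹ : V ≃ₗ[K] V) : V →ₗ[K] V) = W
      rw [map_map, inv_mul_cancel]
      exact Submodule.map_id W,
    fun W => by
      show (W.map ((g⁻¹ : V ≃ₗ[K] V) : V →ₗ[K] V)).map (g : V →ₗ[K] V) = W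
      rw [map_map, mul_inv_cancel]
      exact Submodule.map_id W⟩
  map_one' := by
    ext1 W
    exact Submodule.map_id W
  map_mul' g h := by
    ext1 W
    exact (map_map g h W).symm

omit [Finite V] in
theorem subPerm_apply (g : V ≃ₗ[K] V) (W : Submodule K V) : subPerm g W = W.map (g : V →ₗ[K] V) := rfl

theorem gen_b : ∀ (W : Submodule K V) {Γ : Type u} [Group Γ] [Finite Γ] (r : Γ →* (V ≃ₗ[K] V)),
    (∀ s, Inv (r s : End K V) W) → IsGeneralizedCharacter Γ (fun s => (b (r s : End K V) W : ℂ)) := by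
  classical
  have := Fintype.ofFinite (Submodule K V)
  intro W
  induction W using WellFoundedLT.induction with
  | ind W ih =>
    intro Γ _ _ r hr
    let c : Γ → Submodule K V → ℂ := fun s W' => if W' < W then (b (r s : End K V) W' : ℂ) else 0
    have hmapW : ∀ s, W.map (r s : V →ₗ[K] V) = W := fun s => inv_iff_map.1 (hr s)
    have hg := gen_family (Γ := Γ) (Ω := Submodule K V) (subPerm.comp r) c ?_ ?_
    · have h1 : (fun s => (b (r s : End K V) W : ℂ)) = (finrank K W) • (1 : Γ → ℂ) -
          (fun s => ∑ᶠ ω : Submodule K V, if (subPerm.comp r) s ω = ω then c s ω else 0) := by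
        funext s
        rw [Pi.sub_apply, finsum_eq_sum_of_fintype, b_eq, Pi.smul_apply, Pi.one_apply, nsmul_eq_mul, mul_one]
        push_cast
        congr 1
        rw [Finset.sum_filter]
        refine Finset.sum_congr rfl fun W' _ => ?_
        have h2 : (subPerm.comp r) s W' = W' ↔ Inv (r s : End K V) W' := inv_iff_map.symm
        simp only [h2, c]
        by_cases h3 : W' < W
        · by_cases h4 : Inv (r s : End K V) W'
          · rw [if_pos ⟨h3, h4⟩, if_pos h4, if_pos h3]
          · rw [if_neg (fun h => h4 h.2), if_neg h4]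
        · rw [if_neg (fun h => h3 h.1), if_neg h3, ite_self]
      rw [h1]
      refine Cfsg.Agent.OddOrderCharacters.FeitCoherence.isGen_sub ?_ hg
      exact Cfsg.Agent.OddOrderCharacters.FeitCoherence.isGen_nsmul _
        (Cfsg.Agent.OddOrderCharacters.FeitCoherence.isGen_of_isCharacter Cfsg.Agent.Characters.Core.isCharacter_one)
    · intro W' S hS
      by_cases h3 : W' < W
      · have h4 := ih W' h3 (r.comp S.subtype) (fun s => inv_iff_map.2 (hS s s.2))
        simp only [c, if_pos h3]
        exact h4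
      · simp only [c, if_neg h3]
        exact Cfsg.Agent.OddOrderCharacters.FeitCoherence.isGen_zero
    · intro s t W'
      have h5 : (subPerm.comp r) t W' < W ↔ W' < W := by
        have h6 : (subPerm.comp r) t W' = W'.map (r t : V →ₗ[K] V) := rfl
        rw [h6]
        conv_lhs => rw [← hmapW t]
        constructor
        · intro h
          refine lt_of_le_of_ne ?_ ?_
          · intro v hv
            obtain ⟨w, hw, hwe⟩ := h.le ⟨v, hv, rfl⟩
            rw [← (r t).injective hwe]
            exact hw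
          · rintro rfl
            exact lt_irrefl _ h
        · intro h
          exact Submodule.map_strictMono_of_injective (r t).injective h
      simp only [c, h5]
      by_cases h3 : W' < W
      · rw [if_pos h3, if_pos h3, Int.cast_inj]
        refine b_conj (r t) ?_ W'
        intro v
        show (r (t * s * t⁻¹)) (r t v) = r t (r s v)
        rw [map_mul, map_mul, map_inv]
        show (r t) ((r s) ((r t)⁻¹ (r t v))) = _
        rw [show ((r t)⁻¹ : V ≃ₗ[K] V) (r t v) = v from (r t).symm_apply_apply v]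
      · rw [if_neg h3, if_neg h3]

/-! ### mean values -/

/-- `L` induces all isomorphisms between proper subspaces of `W` -/
def Ext (L : Subgroup (V ≃ₗ[K] V)) (W : Submodule K V) : Prop :=
  ∀ (A B : Submodule K V), A < W → B < W → ∀ e : A ≃ₗ[K] B, ∃ h ∈ L, ∀ v : A, h v = e v

/-- the stabiliser -/
def stab (L : Subgroup (V ≃ₗ[K] V)) (A : Submodule K V) : Subgroup (V ≃ₗ[K] V) where
  carrier := {h | h ∈ L ∧ A.map (h : V →ₗ[K] V) = A}
  one_mem' := ⟨L.one_mem, Submodule.map_id A⟩
  mul_mem' := by
    rintro g h ⟨hg, hg'⟩ ⟨hh, hh'⟩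
    exact ⟨L.mul_mem hg hh, by rw [← map_map, hh', hg']⟩
  inv_mem' := by
    rintro g ⟨hg, hg'⟩
    refine ⟨L.inv_mem hg, ?_⟩
    conv_lhs => rw [← hg']
    rw [map_map, inv_mul_cancel]
    exact Submodule.map_id A

instance finite_equiv : Finite (V ≃ₗ[K] V) := Finite.of_injective (fun f : V ≃ₗ[K] V => (f : V → V))
  DFunLike.coe_injective

omit [Finite V] in
theorem mem_stab {L : Subgroup (V ≃ₗ[K] V)} {A : Submodule K V} {h : V ≃ₗ[K] V} :
    h ∈ stab L A ↔ h ∈ L ∧ A.map (h : V →ₗ[K] V) = A := Iff.rfl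

omit [Finite V] in
theorem stab_le (L : Subgroup (V ≃ₗ[K] V)) (A : Submodule K V) : stab L A ≤ L := fun _ h => h.1

theorem Ext.stab {L : Subgroup (V ≃ₗ[K] V)} {W A : Submodule K V} (h : Ext L W) (hA : A < W) : Ext (stab L A) A := by
  intro B C hB hC e
  -- extend `e` to `A`
  let B' : Submodule K A := B.comap A.subtype
  let C' : Submodule K A := C.comap A.subtype
  let eB : B' ≃ₗ[K] B := Submodule.comapSubtypeEquivOfLe hB.le
  let eC : C' ≃ₗ[K] C := Submodule.comapSubtypeEquivOfLe hC.le
  obtain ⟨e', he'⟩ := Submodule.exists_linearEquiv_restrict_eq ((eB.trans e).trans eC.symm)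
  obtain ⟨h', hh', hh2⟩ := h A A hA hA e'
  refine ⟨h', ⟨hh', ?_⟩, ?_⟩
  · rw [← inv_iff_map]
    intro v hv
    show h' v ∈ A
    rw [hh2 ⟨v, hv⟩]
    exact (e' _).2
  · intro v
    have h1 := hh2 ⟨v, hB.le v.2⟩
    have h2 := he' ⟨⟨v, hB.le v.2⟩, v.2⟩
    have h3 : (e' ⟨v, hB.le v.2⟩ : V) = e v := by
      have h4 := congrArg (fun x : A => (x : V)) h2
      rw [← h4]
      have h5 : eC (eC.symm (e (eB ⟨⟨v, hB.le v.2⟩, v.2⟩))) = e v := eC.apply_symm_apply _
      exact congrArg Subtype.val h5
    rw [← h3]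
    exact h1

omit [Finite V] in
/-- a subspace of dimension `d` -/
theorem exists_sub [FiniteDimensional K V] {W : Submodule K V} {d : ℕ} (hd : d < finrank K W) :
    ∃ A₀ : Submodule K V, A₀ < W ∧ finrank K A₀ = d := by
  let bb := finBasis K W
  let f : Fin d → V := fun i => bb (Fin.castLE hd.le i)
  have hf : LinearIndependent K f := by
    have h1 := bb.linearIndependent.comp _ (Fin.castLE_injective hd.le)
    exact h1.map' W.subtype (Submodule.ker_subtype W)
  refine ⟨Submodule.span K (Set.range f), lt_of_le_of_ne ?_ ?_, ?_⟩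
  · rw [Submodule.span_le]
    rintro _ ⟨i, rfl⟩
    exact (bb (Fin.castLE hd.le i)).2
  · intro h
    have h1 := finrank_span_eq_card hf
    rw [h, Fintype.card_fin] at h1
    omega
  · rw [finrank_span_eq_card hf, Fintype.card_fin]

open Classical in
/-- the sum of the orders of the stabilisers of the subspaces of dimension `d` -/
theorem sum_stab [Fintype (Submodule K V)] {L : Subgroup (V ≃ₗ[K] V)} {W : Submodule K V} (hL : ∀ h ∈ L, Inv (h : End K V) W)
    (hE : Ext L W) {d : ℕ} (hd : d < finrank K W) :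
    ∑ A ∈ Finset.univ.filter (fun A : Submodule K V => A < W ∧ finrank K A = d), (Nat.card (stab L A) : ℤ) =
      Nat.card L := by
  have := Fintype.ofFinite L
  obtain ⟨A₀, hA₀, hA₀d⟩ := exists_sub hd
  have h1 : ∀ A ∈ Finset.univ.filter (fun A : Submodule K V => A < W ∧ finrank K A = d),
      (Nat.card (stab L A) : ℤ) = ((Finset.univ.filter (fun h : L => A₀.map ((h : V ≃ₗ[K] V) : V →ₗ[K] V) = A)).card : ℤ) := by
    intro A hA
    obtain ⟨-, hAW, hAd⟩ := Finset.mem_filter.1 hA
    have e : A₀ ≃ₗ[K] A := LinearEquiv.ofFinrankEq _ _ (by rw [hA₀d, hAd])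
    obtain ⟨h₀, hh₀, hh₁⟩ := hE A₀ A hA₀ hAW e
    have hmap : A₀.map (h₀ : V →ₗ[K] V) = A := by
      apply le_antisymm
      · rintro _ ⟨v, hv, rfl⟩
        show h₀ v ∈ A
        rw [hh₁ ⟨v, hv⟩]
        exact (e _).2
      · intro v hv
        refine ⟨(e.symm ⟨v, hv⟩ : A₀), (e.symm ⟨v, hv⟩).2, ?_⟩
        show h₀ _ = v
        rw [hh₁, e.apply_symm_apply]
    have := Fintype.ofFinite (stab L A)
    rw [Nat.card_eq_fintype_card, Nat.cast_inj]
    refine Finset.card_bij (fun (s : stab L A) _ => (⟨(s : V ≃ₗ[K] V) * h₀, L.mul_mem s.2.1 hh₀⟩ : L)) ?_ ?_ ?_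
    · intro s _
      rw [Finset.mem_filter]
      refine ⟨Finset.mem_univ _, ?_⟩
      show A₀.map (((s : V ≃ₗ[K] V) * h₀ : V ≃ₗ[K] V) : V →ₗ[K] V) = A
      rw [← map_map, hmap, s.2.2]
    · intro s _ t _ hst
      exact Subtype.ext (mul_right_cancel (congrArg Subtype.val hst))
    · intro x hx
      rw [Finset.mem_filter] at hx
      refine ⟨⟨(x : V ≃ₗ[K] V) * h₀⁻¹, L.mul_mem x.2 (L.inv_mem hh₀), ?_⟩, Finset.mem_univ _, ?_⟩
      · rw [← map_map]
        have h2 : A.map ((h₀⁻¹ : V ≃ₗ[K] V) : V →ₗ[K] V) = A₀ := by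
          rw [← hmap, map_map, inv_mul_cancel]
          exact Submodule.map_id _
        rw [h2, hx.2]
      · apply Subtype.ext
        show (x : V ≃ₗ[K] V) * h₀⁻¹ * h₀ = x
        rw [inv_mul_cancel_right]
  rw [Finset.sum_congr rfl h1, ← Nat.cast_sum, Nat.cast_inj, Nat.card_eq_fintype_card]
  symm
  refine Finset.card_eq_sum_card_fiberwise ?_
  intro h _
  rw [Finset.coe_filter, Set.mem_ofPred_eq]
  refine ⟨Finset.mem_univ _, ?_, ?_⟩
  · have h2 := Submodule.map_strictMono_of_injective (f := ((h : V ≃ₗ[K] V) : V →ₗ[K] V)) (h : V ≃ₗ[K] V).injective hA₀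
    rwa [inv_iff_map.1 (hL h h.2)] at h2
  · rw [LinearEquiv.finrank_map_eq, hA₀d]

/-- **the mean value** -/
theorem avg_b : ∀ (W : Submodule K V) (L : Subgroup (V ≃ₗ[K] V)) [Fintype L], (∀ h ∈ L, Inv (h : End K V) W) → Ext L W →
    W ≠ ⊥ → ∑ h : L, b ((h : V ≃ₗ[K] V) : End K V) W = Nat.card L := by
  classical
  have := Fintype.ofFinite (Submodule K V)
  intro W
  induction W using WellFoundedLT.induction with
  | ind W ih =>
    intro L _ hL hE hW
    have h1 : ∑ h : L, b ((h : V ≃ₗ[K] V) : End K V) W = Nat.card L * (finrank K W : ℤ) -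
        ∑ A ∈ Finset.univ.filter (fun A : Submodule K V => A < W), ∑ h : L,
          if Inv ((h : V ≃ₗ[K] V) : End K V) A then b ((h : V ≃ₗ[K] V) : End K V) A else 0 := by
      have h2 : ∀ h : L, b ((h : V ≃ₗ[K] V) : End K V) W = (finrank K W : ℤ) -
          ∑ A ∈ Finset.univ.filter (fun A : Submodule K V => A < W),
            if Inv ((h : V ≃ₗ[K] V) : End K V) A then b ((h : V ≃ₗ[K] V) : End K V) A else 0 := by
        intro h
        rw [b_eq, ← Finset.sum_filter, Finset.filter_filter]
      rw [Finset.sum_congr rfl fun h _ => h2 h, Finset.sum_sub_distrib, Finset.sum_const, Finset.card_univ,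
        nsmul_eq_mul, Finset.sum_comm, Nat.card_eq_fintype_card]
    have h2 : ∀ A ∈ Finset.univ.filter (fun A : Submodule K V => A < W), (∑ h : L,
        if Inv ((h : V ≃ₗ[K] V) : End K V) A then b ((h : V ≃ₗ[K] V) : End K V) A else 0) =
        if A = ⊥ then 0 else (Nat.card (stab L A) : ℤ) := by
      intro A hA
      rw [Finset.mem_filter] at hA
      by_cases h0 : A = ⊥
      · rw [if_pos h0]
        refine Finset.sum_eq_zero fun h _ => ?_
        rw [h0, b_bot, ite_self]
      · rw [if_neg h0]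
        have := Fintype.ofFinite (stab L A)
        rw [← ih A hA.2 (stab L A) (fun h hh => inv_iff_map.2 hh.2) (hE.stab hA.2) h0, ← Finset.sum_filter]
        symm
        refine Finset.sum_bij (fun (s : stab L A) _ => (⟨(s : V ≃ₗ[K] V), s.2.1⟩ : L)) ?_ ?_ ?_ ?_
        · intro s _
          rw [Finset.mem_filter]
          exact ⟨Finset.mem_univ _, inv_iff_map.2 s.2.2⟩
        · intro s _ t _ hst
          have h6 : (s : V ≃ₗ[K] V) = t := congrArg (fun x : L => (x : V ≃ₗ[K] V)) hst
          exact Subtype.ext h6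
        · intro x hx
          rw [Finset.mem_filter] at hx
          exact ⟨⟨x, x.2, inv_iff_map.1 hx.2⟩, Finset.mem_univ _, rfl⟩
        · intro s _
          rfl
    rw [h1, Finset.sum_congr rfl h2]
    -- sort by the dimension
    have h3 : ∀ A ∈ Finset.univ.filter (fun A : Submodule K V => A < W), finrank K A ∈ Finset.range (finrank K W) := by
      intro A hA
      rw [Finset.mem_filter] at hA
      rw [Finset.mem_range]
      exact Submodule.finrank_lt_finrank_of_lt hA.2
    rw [← Finset.sum_fiberwise_of_maps_to h3]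
    have h4 : ∀ d ∈ Finset.range (finrank K W), (∑ A ∈ (Finset.univ.filter (fun A : Submodule K V => A < W)).filter
        (fun A : Submodule K V => finrank K A = d), if A = ⊥ then 0 else (Nat.card (stab L A) : ℤ)) =
        if d = 0 then 0 else (Nat.card L : ℤ) := by
      intro d hd
      rw [Finset.mem_range] at hd
      by_cases h0 : d = 0
      · rw [if_pos h0]
        refine Finset.sum_eq_zero fun A hA => ?_
        rw [Finset.mem_filter, h0] at hA
        rw [if_pos (Submodule.finrank_eq_zero.1 hA.2)]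
      · rw [if_neg h0, ← sum_stab hL hE hd, Finset.filter_filter]
        refine Finset.sum_congr rfl fun A hA => ?_
        rw [Finset.mem_filter] at hA
        rw [if_neg]
        rintro rfl
        rw [finrank_bot] at hA
        exact h0 hA.2.2.symm
    rw [Finset.sum_congr rfl h4]
    have h5 : 0 < finrank K W := by
      rw [Nat.pos_iff_ne_zero]
      exact fun h => hW (Submodule.finrank_eq_zero.1 h)
    obtain ⟨m, hm⟩ : ∃ m, finrank K W = m + 1 := ⟨finrank K W - 1, by omega⟩
    rw [hm, Finset.sum_range_succ']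
    simp only [Nat.add_eq_zero_iff, one_ne_zero, and_false, if_false, if_true, Finset.sum_const, Finset.card_range,
      nsmul_eq_mul]
    push_cast
    ring

end Cfsg.Agent.H739.PQ.E7
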