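import Cfsg.Agent.H739.PQ.E7.Avg
import Cfsg.Agent.H739.PQ.E7.Defs

/-!
# The generalised character `β` of `GL₅(q)` (helper739)

`exists_beta` (T1 of tools/plans/S4612_e7_510.md).
-/

set_option autoImplicit false

namespace Cfsg.Agent.H739.PQ.E7

open Module Cfsg Matrix

variable {K : Type} [Field K]

/-- matrices as linear maps -/
noncomputable def E : GL (Fin 5) K ≃* ((Fin 5 → K) ≃ₗ[K] (Fin 5 → K)) :=
  (Matrix.GeneralLinearGroup.toLin (n := Fin 5) (R := K)).trans
    (LinearMap.GeneralLinearGroup.generalLinearEquiv K (Fin 5 → K))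

theorem E_apply (g : GL (Fin 5) K) (v : Fin 5 → K) : E g v = (g : Matrix (Fin 5) (Fin 5) K) *ᵥ v := rfl

theorem pres_iff {g : GL (Fin 5) K} {S : Submodule K (Fin 5 → K)} : Pres g S ↔ Inv (E g : End K (Fin 5 → K)) S := Iff.rfl

/-- no invariant subspaces -/
def Irr (g : GL (Fin 5) K) : Prop := ∀ S : Submodule K (Fin 5 → K), Pres g S → S = ⊥ ∨ S = ⊤

/-- elements of `Uni S` from `NN S S` -/
noncomputable def ofNN {S : Submodule K (Fin 5 → K)} (φ : NN S S) : Uni S :=
  ⟨E.symm (unip (φ : End K (Fin 5 → K)) (fun v => sq_zero le_rfl φ.2 φ.2 v)), by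
    have h1 : ∀ v, ((E.symm (unip (φ : End K (Fin 5 → K)) (fun v => sq_zero le_rfl φ.2 φ.2 v)) :
        GL (Fin 5) K) : Matrix (Fin 5) (Fin 5) K) *ᵥ v = v + (φ : End K (Fin 5 → K)) v := by
      intro v
      rw [← E_apply, E.apply_symm_apply, unip_apply]
    constructor
    · intro v
      rw [h1, add_sub_cancel_left]
      exact φ.2.1 v
    · intro v hv
      rw [h1, φ.2.2 v hv, add_zero]⟩

theorem E_ofNN {S : Submodule K (Fin 5 → K)} (φ : NN S S) (v : Fin 5 → K) :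
    E (ofNN φ : GL (Fin 5) K) v = v + (φ : End K (Fin 5 → K)) v := by
  rw [ofNN, E.apply_symm_apply, unip_apply]

theorem ofNN_bij (S : Submodule K (Fin 5 → K)) : Function.Bijective (ofNN : NN S S → Uni S) := by
  constructor
  · intro φ ψ h
    apply Subtype.ext
    ext1 v
    have h1 := E_ofNN φ
    rw [h] at h1
    have h2 := fun v => (h1 v).symm.trans (E_ofNN ψ v)
    apply LinearMap.ext
    intro w
    exact add_left_cancel (h2 _)
  · intro u
    refine ⟨⟨(E (u : GL (Fin 5) K) : End K (Fin 5 → K)) - LinearMap.id, ?_, ?_⟩, ?_⟩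
    · intro v
      exact u.2.1 v
    · intro v hv
      show ((u : GL (Fin 5) K) : Matrix (Fin 5) (Fin 5) K) *ᵥ v - v = 0
      rw [u.2.2 v hv, sub_self]
    · apply Subtype.ext
      apply E.injective
      ext1 v
      rw [E_ofNN]
      show v + (E (u : GL (Fin 5) K) v - v) = _
      abel

/-- the determinant of an element of `Uni S` -/
theorem det_uni [Finite K] {S : Submodule K (Fin 5 → K)} {u : GL (Fin 5) K} (hu : u ∈ Uni S) :
    (u : Matrix (Fin 5) (Fin 5) K).det = 1 := by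
  obtain ⟨r, hr⟩ := CharP.exists K
  have hrp : Fact r.Prime := ⟨CharP.char_is_prime K r⟩
  have h1 : ∀ k : ℕ, ∀ v, ((u ^ k : GL (Fin 5) K) : Matrix (Fin 5) (Fin 5) K) *ᵥ v =
      v + (k : K) • ((u : Matrix (Fin 5) (Fin 5) K) *ᵥ v - v) := by
    intro k
    induction k with
    | zero =>
      intro v
      rw [pow_zero, Units.val_one, one_mulVec, Nat.cast_zero, zero_smul, add_zero]
    | succ k ih =>
      intro v
      rw [pow_succ', Units.val_mul, ← mulVec_mulVec, ih, mulVec_add, mulVec_smul]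
      have h2 : (u : Matrix (Fin 5) (Fin 5) K) *ᵥ ((u : Matrix (Fin 5) (Fin 5) K) *ᵥ v - v) =
          (u : Matrix (Fin 5) (Fin 5) K) *ᵥ v - v := hu.2 _ (hu.1 v)
      rw [h2]
      push_cast
      rw [add_smul, one_smul]
      abel
  have h2 : u ^ r = 1 := by
    apply E.injective
    ext1 v
    rw [E_apply, h1, CharP.cast_eq_zero, zero_smul, add_zero, map_one]
    rfl
  have h3 : (u : Matrix (Fin 5) (Fin 5) K).det ^ r = 1 := by
    rw [← det_pow, ← Units.val_pow_eq_pow_val, h2, Units.val_one, det_one]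
  have h4 : ((u : Matrix (Fin 5) (Fin 5) K).det - 1) ^ r = 0 := by
    rw [sub_pow_char, h3, one_pow, sub_self]
  exact sub_eq_zero.1 (pow_eq_zero_iff hrp.out.ne_zero |>.1 h4)

theorem uni_le [Finite K] {H : Subgroup (GL (Fin 5) K)} (hH : HasSL H) (S : Submodule K (Fin 5 → K)) : Uni S ≤ H :=
  fun _ hu => hH _ (det_uni hu)

/-- the generalised character -/
noncomputable def bet [Finite K] (g : GL (Fin 5) K) : ℤ := b (E g : End K (Fin 5 → K)) ⊤

variable [Finite K]

theorem bet_cusp {S : Submodule K (Fin 5 → K)} (h0 : S ≠ ⊥) (h1 : S ≠ ⊤) {m : GL (Fin 5) K} (hm : Pres m S) :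
    ∑ᶠ u : Uni S, bet (m * (u : GL (Fin 5) K)) = 0 := by
  classical
  have := Fintype.ofFinite (NN S S)
  have := Fintype.ofFinite (Uni S)
  rw [finsum_eq_sum_of_fintype, ← (ofNN_bij S).sum_comp (fun u : Uni S => bet (m * (u : GL (Fin 5) K)))]
  rw [← cusp_gen (⊤ : Submodule K (Fin 5 → K)) S S (E m) (by simp) hm (fun v _ => Submodule.mem_top) h0
    (fun h => h1 (top_le_iff.1 h))]
  refine Finset.sum_congr rfl fun φ _ => ?_
  refine b_congr fun v _ => ?_
  show E (m * (ofNN φ : GL (Fin 5) K)) v = _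
  rw [map_mul]
  show E m (E (ofNN φ : GL (Fin 5) K) v) = _
  rw [E_ofNN, tw_apply]

theorem bet_irr {g : GL (Fin 5) K} (hg : Irr g) : bet g = 5 := by
  classical
  have := Fintype.ofFinite (Submodule K (Fin 5 → K))
  rw [bet, b_eq, finrank_top, Module.finrank_fin_fun, Finset.sum_eq_zero]
  · rfl
  · intro W' hW'
    rw [Finset.mem_filter] at hW'
    rcases hg W' hW'.2.2 with h | h
    · rw [h, b_bot]
    · exact absurd hW'.2.1 (by rw [h]; exact lt_irrefl _)

theorem bet_gen : IsGeneralizedCharacter (GL (Fin 5) K) (fun g => (bet g : ℂ)) :=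
  gen_b (⊤ : Submodule K (Fin 5 → K)) (Γ := GL (Fin 5) K) (E : GL (Fin 5) K ≃* _).toMonoidHom
    (fun _ _ _ => Submodule.mem_top)

/-- orthogonality -/
theorem bet_orth {S : Submodule K (Fin 5 → K)} (h0 : S ≠ ⊥) (h1 : S ≠ ⊤) {H : Subgroup (GL (Fin 5) K)} [Fintype H]
    (hH : HasSL H) (F : GL (Fin 5) K → ℤ) (hF : ∀ h, ∀ u ∈ Uni S, F (h * u) = F h) (hF0 : ∀ h, ¬ Pres h S → F h = 0) :
    ∑ h : H, bet (h : GL (Fin 5) K) * F h = 0 := by
  classical
  have := Fintype.ofFinite (Uni S)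
  have h2 : ∀ u : Uni S, ∑ h : H, bet ((h : GL (Fin 5) K) * (u : GL (Fin 5) K)) * F h =
      ∑ h : H, bet (h : GL (Fin 5) K) * F h := by
    intro u
    refine Fintype.sum_equiv (Equiv.mulRight (⟨u, uni_le hH S u.2⟩ : H)) _ _ ?_
    intro h
    show _ = bet ((h : GL (Fin 5) K) * (u : GL (Fin 5) K)) * F ((h : GL (Fin 5) K) * (u : GL (Fin 5) K))
    rw [hF _ _ u.2]
  have h3 : ∑ u : Uni S, ∑ h : H, bet ((h : GL (Fin 5) K) * (u : GL (Fin 5) K)) * F h = 0 := by
    rw [Finset.sum_comm]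
    refine Finset.sum_eq_zero fun h _ => ?_
    rw [← Finset.sum_mul]
    by_cases h4 : Pres (h : GL (Fin 5) K) S
    · have h5 := bet_cusp h0 h1 h4
      rw [finsum_eq_sum_of_fintype] at h5
      rw [h5, zero_mul]
    · rw [hF0 _ h4, mul_zero]
  rw [Finset.sum_congr rfl fun u _ => h2 u, Finset.sum_const, Finset.card_univ, nsmul_eq_mul] at h3
  rcases mul_eq_zero.1 h3 with h4 | h4
  · exfalso
    have h5 : Fintype.card (Uni S) = 0 := by exact_mod_cast h4
    exact Fintype.card_ne_zero h5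
  · exact h4

open Classical in
theorem bet_eq [Fintype (Submodule K (Fin 5 → K))] (g : GL (Fin 5) K) :
    bet g = 5 - ∑ W : Submodule K (Fin 5 → K), if W ≠ ⊥ ∧ W ≠ ⊤ ∧ Pres g W then b (E g : End K (Fin 5 → K)) W else 0 := by
  rw [bet, b_eq, finrank_top, Module.finrank_fin_fun, Finset.sum_filter]
  congr 1
  refine Finset.sum_congr rfl fun W _ => ?_
  by_cases h0 : W = ⊥
  · rw [h0, b_bot, ite_self, ite_self]
  · have h1 : (W < ⊤ ∧ Inv (E g : End K (Fin 5 → K)) W) ↔ (W ≠ ⊥ ∧ W ≠ ⊤ ∧ Pres g W) := by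
      rw [lt_top_iff_ne_top, pres_iff]
      tauto
    simp only [h1]

theorem bet_mul {H : Subgroup (GL (Fin 5) K)} [Fintype H] (hH : HasSL H) (σ : GL (Fin 5) K → GL (Fin 5) K)
    (hσ : ∀ W : Submodule K (Fin 5 → K), W ≠ ⊥ → W ≠ ⊤ → ∃ S : Submodule K (Fin 5 → K), S ≠ ⊥ ∧ S ≠ ⊤ ∧
      (∀ h, ∀ u ∈ Uni S, (Pres (σ (h * u)) W ↔ Pres (σ h) W) ∧ ∀ v ∈ W, E (σ (h * u)) v = E (σ h) v) ∧
      ∀ h, Pres (σ h) W → Pres h S) :
    ∑ h : H, bet (h : GL (Fin 5) K) * bet (σ h) = 5 * ∑ h : H, bet (h : GL (Fin 5) K) := by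
  classical
  have := Fintype.ofFinite (Submodule K (Fin 5 → K))
  have h1 : ∀ h : H, bet (h : GL (Fin 5) K) * bet (σ h) = 5 * bet (h : GL (Fin 5) K) -
      ∑ W : Submodule K (Fin 5 → K), bet (h : GL (Fin 5) K) *
      (if W ≠ ⊥ ∧ W ≠ ⊤ ∧ Pres (σ h) W then b (E (σ h) : End K (Fin 5 → K)) W else 0) := by
    intro h
    rw [bet_eq (σ h), ← Finset.mul_sum]
    ring
  rw [Finset.sum_congr rfl fun h _ => h1 h, Finset.sum_sub_distrib, Finset.mul_sum, Finset.sum_comm,
    Finset.sum_eq_zero (s := Finset.univ) (f := fun W : Submodule K (Fin 5 → K) => ∑ h : H, bet (h : GL (Fin 5) K) *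
      (if W ≠ ⊥ ∧ W ≠ ⊤ ∧ Pres (σ h) W then b (E (σ h) : End K (Fin 5 → K)) W else 0)), sub_zero]
  intro W _
  by_cases h0 : W ≠ ⊥ ∧ W ≠ ⊤
  · obtain ⟨S, hS0, hS1, hS2, hS3⟩ := hσ W h0.1 h0.2
    refine bet_orth hS0 hS1 hH (fun h => if W ≠ ⊥ ∧ W ≠ ⊤ ∧ Pres (σ h) W then
      b (E (σ h) : End K (Fin 5 → K)) W else 0) ?_ ?_
    · intro h u hu
      obtain ⟨h2, h3⟩ := hS2 h u hu
      rw [b_congr h3]
      simp only [h2]
    · intro h hh
      rw [if_neg]
      exact fun h2 => hh (hS3 h h2.2.2)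
  · refine Finset.sum_eq_zero fun h _ => ?_
    rw [if_neg (fun h => h0 ⟨h.1, h.2.1⟩), mul_zero]

/-! ### the mean value -/

omit [Finite K] in
/-- an element of prescribed determinant fixing a proper subspace -/
theorem exists_dil {B : Submodule K (Fin 5 → K)} (hB : B < ⊤) {c : K} (hc : c ≠ 0) :
    ∃ d : GL (Fin 5) K, (d : Matrix (Fin 5) (Fin 5) K).det = c ∧ ∀ v ∈ B, E d v = v := by
  obtain ⟨f, hf0, hf⟩ := Submodule.exists_le_ker_of_lt_top B hB
  obtain ⟨v₁, hv₁⟩ : ∃ v, f v ≠ 0 := by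
    by_contra h
    push Not at h
    exact hf0 (LinearMap.ext h)
  let w : Fin 5 → K := fun i => f (Pi.single i 1)
  have hw : ∀ v, w ⬝ᵥ v = f v := by
    intro v
    have h1 : v = ∑ i, v i • (Pi.single i 1 : Fin 5 → K) := by
      funext j
      simp [Finset.sum_apply, Pi.single_apply]
    conv_rhs => rw [h1, map_sum]
    refine Finset.sum_congr rfl fun i _ => ?_
    rw [map_smul, smul_eq_mul, mul_comm]
  let u : Fin 5 → K := (f v₁)⁻¹ • (c - 1) • v₁
  let D : Matrix (Fin 5) (Fin 5) K := 1 + replicateCol Unit u * replicateRow Unit w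
  have hD : D.det = c := by
    rw [show D = 1 + replicateCol Unit u * replicateRow Unit w from rfl, det_one_add_replicateCol_mul_replicateRow, hw,
      map_smul, map_smul, smul_eq_mul, smul_eq_mul, mul_comm (c - 1), inv_mul_cancel_left₀ hv₁]
    ring
  have hu : IsUnit D := (Matrix.isUnit_iff_isUnit_det D).2 (by rw [hD]; exact hc.isUnit)
  obtain ⟨d, hd⟩ := hu
  refine ⟨d, by rw [hd, hD], fun v hv => ?_⟩
  rw [E_apply, hd, add_mulVec, one_mulVec, ← mulVec_mulVec]
  have h1 : replicateRow Unit w *ᵥ v = 0 := by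
    funext i
    show w ⬝ᵥ v = 0
    rw [hw]
    exact LinearMap.mem_ker.1 (hf hv)
  rw [h1, mulVec_zero, add_zero]

omit [Finite K] in
theorem ext_of_hasSL {H : Subgroup (GL (Fin 5) K)} (hH : HasSL H) :
    Ext (H.map (E : GL (Fin 5) K ≃* _).toMonoidHom) (⊤ : Submodule K (Fin 5 → K)) := by
  intro A B _ hB e
  obtain ⟨g, hg⟩ := Submodule.exists_linearEquiv_restrict_eq e
  have hdet : ((E.symm g : GL (Fin 5) K) : Matrix (Fin 5) (Fin 5) K).det ≠ 0 :=
    ((Matrix.isUnit_iff_isUnit_det _).1 (E.symm g).isUnit).ne_zero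
  obtain ⟨d, hd, hd2⟩ := exists_dil hB (inv_ne_zero hdet)
  refine ⟨E (d * E.symm g), ⟨d * E.symm g, hH _ ?_, rfl⟩, fun v => ?_⟩
  · rw [Units.val_mul, det_mul, hd, inv_mul_cancel₀ hdet]
  · rw [map_mul, E.apply_symm_apply]
    show E d (g v) = e v
    rw [← hg v]
    exact hd2 _ (e v).2

theorem bet_avg {H : Subgroup (GL (Fin 5) K)} [Fintype H] (hH : HasSL H) :
    ∑ h : H, bet (h : GL (Fin 5) K) = Nat.card H := by
  classical
  have := Fintype.ofFinite (H.map (E : GL (Fin 5) K ≃* _).toMonoidHom)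
  let e : H ≃* H.map (E : GL (Fin 5) K ≃* _).toMonoidHom := H.equivMapOfInjective _ E.injective
  have h1 := avg_b (⊤ : Submodule K (Fin 5 → K)) (H.map (E : GL (Fin 5) K ≃* _).toMonoidHom)
    (fun _ _ _ _ => Submodule.mem_top) (ext_of_hasSL hH) top_ne_bot
  rw [← Nat.card_congr e.toEquiv] at h1
  rw [← h1]
  exact Fintype.sum_equiv e.toEquiv _ _ fun h => rfl

/-! ### duality -/

/-- the orthogonal space -/
def orth (W : Submodule K (Fin 5 → K)) : Submodule K (Fin 5 → K) where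
  carrier := {v | ∀ w ∈ W, w ⬝ᵥ v = 0}
  zero_mem' := fun w _ => dotProduct_zero w
  add_mem' := by
    intro a b ha hb w hw
    rw [dotProduct_add, ha w hw, hb w hw, add_zero]
  smul_mem' := by
    intro c a ha w hw
    rw [dotProduct_smul, ha w hw, smul_zero]

omit [Finite K] in
theorem orth_ne_bot {W : Submodule K (Fin 5 → K)} (hW : W ≠ ⊤) : orth W ≠ ⊥ := by
  intro h
  obtain ⟨f, hf0, hf⟩ := Submodule.exists_le_ker_of_lt_top W (lt_top_iff_ne_top.2 hW)
  apply hf0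
  let w : Fin 5 → K := fun i => f (Pi.single i 1)
  have hw : ∀ v, v ⬝ᵥ w = f v := by
    intro v
    have h1 : v = ∑ i, v i • (Pi.single i 1 : Fin 5 → K) := by
      funext j
      simp [Finset.sum_apply, Pi.single_apply]
    conv_rhs => rw [h1, map_sum]
    refine Finset.sum_congr rfl fun i _ => ?_
    rw [map_smul, smul_eq_mul]
  have h1 : w ∈ orth W := fun v hv => by rw [hw]; exact LinearMap.mem_ker.1 (hf hv)
  rw [h, Submodule.mem_bot] at h1
  apply LinearMap.ext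
  intro v
  rw [← hw, h1, dotProduct_zero]
  rfl

omit [Finite K] in
theorem orth_ne_top {W : Submodule K (Fin 5 → K)} (hW : W ≠ ⊥) : orth W ≠ ⊤ := by
  intro h
  apply hW
  rw [eq_bot_iff]
  intro w hw
  rw [Submodule.mem_bot]
  funext i
  have h1 : (Pi.single i 1 : Fin 5 → K) ∈ orth W := by rw [h]; exact Submodule.mem_top
  have h2 := h1 w hw
  rwa [dotProduct_single_one] at h2

omit [Finite K] in
theorem dot_tau (h : GL (Fin 5) K) (w v : Fin 5 → K) : (E (tau h) w) ⬝ᵥ (E h v) = w ⬝ᵥ v := by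
  rw [E_apply, E_apply]
  show (((h⁻¹ : GL (Fin 5) K) : Matrix (Fin 5) (Fin 5) K)ᵀ *ᵥ w) ⬝ᵥ _ = _
  rw [mulVec_transpose, ← dotProduct_mulVec, mulVec_mulVec, ← Units.val_mul, inv_mul_cancel, Units.val_one, one_mulVec]

omit [Finite K] in
theorem tau_mul (g h : GL (Fin 5) K) : tau (g * h) = tau g * tau h := by
  apply Units.ext
  show (((g * h)⁻¹ : GL (Fin 5) K) : Matrix (Fin 5) (Fin 5) K)ᵀ = ((g⁻¹ : GL (Fin 5) K) : Matrix (Fin 5) (Fin 5) K)ᵀ *
    ((h⁻¹ : GL (Fin 5) K) : Matrix (Fin 5) (Fin 5) K)ᵀ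
  rw [_root_.mul_inv_rev, Units.val_mul, transpose_mul]

omit [Finite K] in
theorem eq_of_dot {v w : Fin 5 → K} (h : ∀ x, v ⬝ᵥ x = w ⬝ᵥ x) : v = w := by
  funext i
  have h1 := h (Pi.single i 1)
  rwa [dotProduct_single_one, dotProduct_single_one] at h1

omit [Finite K] in
theorem tau_uni {W : Submodule K (Fin 5 → K)} {u : GL (Fin 5) K} (hu : u ∈ Uni (orth W)) {w : Fin 5 → K} (hw : w ∈ W) :
    E (tau u) w = w := by
  apply eq_of_dot
  intro x
  have h1 := dot_tau u w ((E u).symm x)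
  rw [LinearEquiv.apply_symm_apply] at h1
  rw [h1]
  have h2 : x - (E u).symm x ∈ orth W := by
    have h3 := hu.1 ((E u).symm x)
    rw [← E_apply, LinearEquiv.apply_symm_apply] at h3
    exact h3
  have h3 := h2 w hw
  rw [dotProduct_sub, sub_eq_zero] at h3
  exact h3.symm

/-- **T1** -/
theorem exists_beta (K : Type) [Field K] [Finite K] : ∃ β : GL (Fin 5) K → ℤ,
    IsGeneralizedCharacter (GL (Fin 5) K) (fun g => (β g : ℂ)) ∧
    (∀ S : Submodule K (Fin 5 → K), S ≠ ⊥ → S ≠ ⊤ → ∀ m, Pres m S → ∑ᶠ u : Uni S, β (m * u) = 0) ∧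
    (∀ g, Irr g → β g = 5) ∧
    (∀ H : Subgroup (GL (Fin 5) K), HasSL H → ∑ᶠ h : H, β h = Nat.card H) ∧
    (∀ H : Subgroup (GL (Fin 5) K), HasSL H → ∑ᶠ h : H, β h * β h = 5 * Nat.card H) ∧
    (∀ H : Subgroup (GL (Fin 5) K), HasSL H → ∑ᶠ h : H, β h * β (tau h) = 5 * Nat.card H) := by
  classical
  refine ⟨bet, bet_gen, fun S h0 h1 m hm => bet_cusp h0 h1 hm, fun g hg => bet_irr hg, fun H hH => ?_, fun H hH => ?_,
    fun H hH => ?_⟩
  · have := Fintype.ofFinite H
    rw [finsum_eq_sum_of_fintype, bet_avg hH]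
  · have := Fintype.ofFinite H
    rw [finsum_eq_sum_of_fintype, ← bet_avg hH]
    refine bet_mul hH (fun g => g) ?_
    intro W h0 h1
    refine ⟨W, h0, h1, ?_, fun h hh => hh⟩
    intro h u hu
    have h2 : ∀ v ∈ W, E (h * u) v = E h v := by
      intro v hv
      show E (h * u) v = E h v
      rw [map_mul]
      show E h (E u v) = _
      rw [show E u v = v from hu.2 v hv]
    refine ⟨?_, h2⟩
    constructor
    · intro h3 v hv
      show E h v ∈ W
      rw [← h2 v hv]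
      exact h3 v hv
    · intro h3 v hv
      show E (h * u) v ∈ W
      rw [h2 v hv]
      exact h3 v hv
  · have := Fintype.ofFinite H
    rw [finsum_eq_sum_of_fintype, bet_mul hH tau, bet_avg hH]
    intro W h0 h1
    refine ⟨orth W, orth_ne_bot h1, orth_ne_top h0, ?_, ?_⟩
    · intro h u hu
      have h2 : ∀ v ∈ W, E (tau (h * u)) v = E (tau h) v := by
        intro v hv
        rw [tau_mul, map_mul]
        show E (tau h) (E (tau u) v) = _
        rw [tau_uni hu hv]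
      refine ⟨?_, h2⟩
      constructor
      · intro h3 v hv
        show E (tau h) v ∈ W
        rw [← h2 v hv]
        exact h3 v hv
      · intro h3 v hv
        show E (tau (h * u)) v ∈ W
        rw [h2 v hv]
        exact h3 v hv
    · intro h hh v hv w hw
      have h2 : ((E (tau h)).symm w) ∈ W := by
        rw [← map_mem_iff (g := E (tau h)) (A := W) hh, LinearEquiv.apply_symm_apply]
        exact hw
      have h3 := dot_tau h ((E (tau h)).symm w) v
      rw [LinearEquiv.apply_symm_apply, hv _ h2] at h3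
      exact h3

end Cfsg.Agent.H739.PQ.E7
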