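import Cfsg.Agent.H739.PQ.E7.Lat

/-!
# Cuspidality of `b` (helper739)

`cusp_gen`: `∑ b (g (1 + φ)) W = 0`, the sum over the `φ : V → W ⊓ S` vanishing on `S`, if `⊥ < W ⊓ S < W` and `g` preserves
`S` and `W`.
-/

set_option autoImplicit false

namespace Cfsg.Agent.H739.PQ.E7

open Module

variable {K V : Type*} [Field K] [AddCommGroup V] [Module K V]

/-- the linear maps into `A` vanishing on `S` -/
def NN (S A : Submodule K V) : AddSubgroup (End K V) where
  carrier := {φ | (∀ v, φ v ∈ A) ∧ ∀ v ∈ S, φ v = 0}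
  zero_mem' := ⟨fun _ => A.zero_mem, fun _ _ => rfl⟩
  add_mem' := by
    rintro φ ψ ⟨h1, h2⟩ ⟨h3, h4⟩
    exact ⟨fun v => A.add_mem (h1 v) (h3 v), fun v hv => by rw [LinearMap.add_apply, h2 v hv, h4 v hv, add_zero]⟩
  neg_mem' := by
    rintro φ ⟨h1, h2⟩
    exact ⟨fun v => A.neg_mem (h1 v), fun v hv => by rw [LinearMap.neg_apply, h2 v hv, neg_zero]⟩

theorem mem_NN {S A : Submodule K V} {φ : End K V} : φ ∈ NN S A ↔ (∀ v, φ v ∈ A) ∧ ∀ v ∈ S, φ v = 0 := Iff.rfl

/-- `g (1 + φ)` -/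
def tw (g : V ≃ₗ[K] V) (φ : End K V) : End K V := (g : V →ₗ[K] V) ∘ₗ (LinearMap.id + φ)

theorem tw_apply (g : V ≃ₗ[K] V) (φ : End K V) (v : V) : tw g φ v = g (v + φ v) := rfl

/-- `1 + φ` -/
def unip (φ : End K V) (hφ : ∀ v, φ (φ v) = 0) : V ≃ₗ[K] V :=
  LinearEquiv.ofLinearMap (LinearMap.id + φ) (LinearMap.id - φ)
    (by
      ext v
      simp only [LinearMap.comp_apply, LinearMap.add_apply, LinearMap.sub_apply, LinearMap.id_apply, map_sub, hφ]
      abel)
    (by
      ext v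
      simp only [LinearMap.comp_apply, LinearMap.add_apply, LinearMap.sub_apply, LinearMap.id_apply, map_add, hφ]
      abel)

theorem unip_apply (φ : End K V) (hφ : ∀ v, φ (φ v) = 0) (v : V) : unip φ hφ v = v + φ v := rfl

theorem sq_zero {S A : Submodule K V} (hA : A ≤ S) {φ ψ : End K V} (hφ : φ ∈ NN S A) (hψ : ψ ∈ NN S A) (v : V) :
    φ (ψ v) = 0 := hφ.2 _ (hA (hψ.1 v))

variable [Finite V]

instance finite_end : Finite (End K V) := Finite.of_injective (fun f : End K V => (f : V → V)) DFunLike.coe_injective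

/-- an injective map into itself is onto -/
theorem map_mem_iff {g : V ≃ₗ[K] V} {A : Submodule K V} (hA : Inv (g : End K V) A) {v : V} : g v ∈ A ↔ v ∈ A := by
  constructor
  · intro h
    have : Finite A := inferInstance
    let f : A → A := fun a => ⟨g a, hA a a.2⟩
    have hf : Function.Injective f := by
      intro a a' haa
      exact Subtype.ext (g.injective (congrArg Subtype.val haa))
    obtain ⟨a, ha⟩ := (Finite.injective_iff_surjective.1 hf) ⟨g v, h⟩
    have h1 : g (a : V) = g v := congrArg Subtype.val ha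
    rw [← g.injective h1]
    exact a.2
  · exact hA v

omit [Finite V] in
/-- a projection to `R` vanishing on `S` -/
theorem exists_proj {S R : Submodule K V} (h : R ⊓ S = ⊥) :
    ∃ P : End K V, (∀ v, P v ∈ R) ∧ (∀ v ∈ S, P v = 0) ∧ ∀ v ∈ R, P v = v := by
  let j : R →ₗ[K] V ⧸ S := S.mkQ ∘ₗ R.subtype
  have hj : LinearMap.ker j = ⊥ := by
    rw [LinearMap.ker_eq_bot']
    intro r hr
    have h1 : (r : V) ∈ S := (Submodule.Quotient.mk_eq_zero S).1 hr
    have h2 : (r : V) ∈ R ⊓ S := ⟨r.2, h1⟩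
    rw [h] at h2
    exact Subtype.ext ((Submodule.mem_bot K).1 h2)
  obtain ⟨k, hk⟩ := LinearMap.exists_leftInverse_of_injective j hj
  refine ⟨R.subtype ∘ₗ k ∘ₗ S.mkQ, fun v => (k (S.mkQ v)).2, fun v hv => ?_, fun v hv => ?_⟩
  · have h1 : S.mkQ v = 0 := (Submodule.Quotient.mk_eq_zero S).2 hv
    rw [LinearMap.comp_apply, LinearMap.comp_apply, h1, map_zero, map_zero]
  · have h1 := LinearMap.congr_fun hk ⟨v, hv⟩
    exact congrArg Subtype.val h1

open Classical in
/-- the sum over `NN S A` for a fixed subspace -/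
noncomputable def GG (g : V ≃ₗ[K] V) (S A W' : Submodule K V) [Fintype (NN S A)] : ℤ :=
  ∑ φ : NN S A, if Inv (tw g φ) W' then b (tw g φ) W' else 0

open Classical in
/-- the summand of the formula for `finrank` -/
noncomputable def XX (g : V ≃ₗ[K] V) (C : Submodule K V) : ℤ := if Inv (g : End K V) C then b (g : End K V) C else 0

omit [Finite V] in
theorem inv_tw_add {S A A' W' : Submodule K V} (hAS : A ≤ S) (hA' : A' ≤ A) (hW : A' ≤ W') {g : V ≃ₗ[K] V}
    {φ ψ : End K V} (hφ : φ ∈ NN S A) (hψ : ψ ∈ NN S A') : Inv (tw g (φ + ψ)) W' ↔ Inv (tw g φ) W' := by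
  have e : ∀ v, tw g (φ + ψ) v = tw g φ (v + ψ v) := by
    intro v
    have h1 : φ (v + ψ v) = φ v := by rw [map_add φ, hφ.2 _ (hAS (hA' (hψ.1 v))), add_zero]
    rw [tw_apply, tw_apply, h1, LinearMap.add_apply]
    congr 1
    abel
  constructor
  · intro h v hv
    have h1 := h (v - ψ v) (W'.sub_mem hv (hW (hψ.1 v)))
    rw [e, map_sub, hψ.2 _ (hAS (hA' (hψ.1 v))), sub_zero, sub_add_cancel] at h1
    exact h1
  · intro h v hv
    rw [e]
    exact h _ (W'.add_mem hv (hW (hψ.1 v)))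

section Main

variable {W S A : Submodule K V}

/-- translation by an element of `NN S A` -/
theorem GG_translate {S A W' : Submodule K V} [Fintype (NN S A)] (hAS : A ≤ S) {g g' : V ≃ₗ[K] V} {ψ : End K V}
    (hψ : ψ ∈ NN S A) (hg : ∀ v, g' v = g (v + ψ v)) : GG g' S A W' = GG g S A W' := by
  classical
  unfold GG
  refine Fintype.sum_equiv (Equiv.addLeft (⟨ψ, hψ⟩ : NN S A)) _ _ ?_
  intro φ
  have e : tw g' φ = tw g (ψ + φ) := by
    ext v
    have h1 : ψ (v + (φ : End K V) v) = ψ v := by rw [map_add ψ, sq_zero hAS hψ φ.2, add_zero]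
    rw [tw_apply, tw_apply, hg, h1, LinearMap.add_apply]
    congr 1
    abel
  show (if Inv (tw g' φ) W' then b (tw g' φ) W' else 0) = if Inv (tw g (ψ + φ)) W' then b (tw g (ψ + φ)) W' else 0
  rw [e]

/-- case (b) -/
theorem GG_le [Fintype (NN S A)] {g : V ≃ₗ[K] V} {W' : Submodule K V} (hW' : W' ≤ S) :
    GG g S A W' = Fintype.card (NN S A) * XX g W' := by
  classical
  have e : ∀ φ : NN S A, ∀ v ∈ W', tw g φ v = (g : End K V) v := by
    intro φ v hv
    rw [tw_apply, φ.2.2 v (hW' hv), add_zero]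
    rfl
  have h1 : ∀ φ : NN S A, (if Inv (tw g φ) W' then b (tw g φ) W' else 0) = XX g W' := by
    intro φ
    rw [b_congr (e φ)]
    have h2 : Inv (tw g φ) W' ↔ Inv (g : End K V) W' := by
      constructor
      · intro h v hv
        rw [← e φ v hv]
        exact h v hv
      · intro h v hv
        rw [e φ v hv]
        exact h v hv
    simp only [h2, XX]
  unfold GG
  rw [Finset.sum_congr rfl fun φ _ => h1 φ, Finset.sum_const, Finset.card_univ, nsmul_eq_mul]

/-- case (a) -/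
theorem GG_eq_zero [Fintype (NN S A)] (hAS : A ≤ S) {g : V ≃ₗ[K] V} {W' : Submodule K V} (hSg : Inv (g : End K V) S)
    (hW'A : W' ⊓ S ≤ A)
    (ih : ∀ (g' : V ≃ₗ[K] V) [Fintype (NN S (W' ⊓ S))], Inv (g' : End K V) S → Inv (g' : End K V) W' →
      ∑ φ : NN S (W' ⊓ S), b (tw g' φ) W' = 0) : GG g S A W' = 0 := by
  classical
  have := Fintype.ofFinite (NN S (W' ⊓ S))
  have hle : NN S (W' ⊓ S) ≤ NN S A := fun ψ hψ => ⟨fun v => hW'A (hψ.1 v), hψ.2⟩
  set F : End K V → ℤ := fun φ => if Inv (tw g φ) W' then b (tw g φ) W' else 0 with hF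
  have h1 : ∀ φ : NN S A, ∑ ψ : NN S (W' ⊓ S), F (φ + ψ) = 0 := by
    intro φ
    have h2 : ∀ ψ : NN S (W' ⊓ S), (Inv (tw g ((φ : End K V) + ψ)) W' ↔ Inv (tw g φ) W') := fun ψ =>
      inv_tw_add hAS hW'A inf_le_left φ.2 ψ.2
    by_cases h3 : Inv (tw g φ) W'
    · let g' : V ≃ₗ[K] V := (unip (φ : End K V) (fun v => sq_zero hAS φ.2 φ.2 v)).trans g
      have hg' : ∀ v, g' v = g (v + (φ : End K V) v) := fun v => rfl
      have e : ∀ ψ : NN S (W' ⊓ S), tw g ((φ : End K V) + ψ) = tw g' ψ := by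
        intro ψ
        ext v
        have h4 : (φ : End K V) (v + (ψ : End K V) v) = (φ : End K V) v := by
          rw [map_add (φ : End K V), φ.2.2 _ (ψ.2.1 v).2, add_zero]
        rw [tw_apply, tw_apply, hg', h4, LinearMap.add_apply]
        congr 1
        abel
      have h5 := ih g' (fun v hv => by
          show g' v ∈ S
          rw [hg', φ.2.2 v hv, add_zero]
          exact hSg v hv) (fun v hv => h3 v hv)
      rw [← h5]
      refine Finset.sum_congr rfl fun ψ _ => ?_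
      rw [hF]
      beta_reduce
      rw [if_pos ((h2 ψ).2 h3), e]
    · refine Finset.sum_eq_zero fun ψ _ => ?_
      rw [hF]
      beta_reduce
      rw [if_neg (fun h => h3 ((h2 ψ).1 h))]
  have h2 : (Fintype.card (NN S (W' ⊓ S)) : ℤ) * GG g S A W' = 0 := by
    have h3 : ∀ ψ : NN S (W' ⊓ S), ∑ φ : NN S A, F (φ + ψ) = GG g S A W' := by
      intro ψ
      unfold GG
      exact Fintype.sum_equiv (Equiv.addRight (⟨ψ, hle ψ.2⟩ : NN S A)) _ _ fun φ => rfl
    have h4 : ∑ ψ : NN S (W' ⊓ S), ∑ φ : NN S A, F (φ + ψ) = 0 := by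
      rw [Finset.sum_comm]
      exact Finset.sum_eq_zero fun φ _ => h1 φ
    rw [Finset.sum_congr rfl fun ψ _ => h3 ψ, Finset.sum_const, Finset.card_univ, nsmul_eq_mul] at h4
    exact h4
  rcases mul_eq_zero.1 h2 with h3 | h3
  · exfalso
    have h4 : Fintype.card (NN S (W' ⊓ S)) = 0 := by exact_mod_cast h3
    exact Fintype.card_ne_zero h4
  · exact h3

open Classical in
/-- case (c), one subspace -/
theorem GG_graph [Fintype (NN S A)] [Fintype (Submodule K V)] (hWS : W ⊓ S = A) {g : V ≃ₗ[K] V}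
    (hSg : Inv (g : End K V) S) (hWg : Inv (g : End K V) W)
    {R : Submodule K V} (hRg : Inv (g : End K V) R) {P : End K V} (hP1 : ∀ v, P v ∈ R)
    (hP2 : ∀ v ∈ S, P v = 0) (hP3 : ∀ v ∈ R, P v = v) (hP4 : ∀ v ∈ W, v - P v ∈ A)
    {W' : Submodule K V} (hW' : W' ≤ W) (hW'S : W' ⊓ S = ⊥) :
    GG g S A W' = ∑ C ∈ Finset.univ.filter (fun C : Submodule K V => C ≤ R), ∑ η : NN S A,
      if C.map (LinearMap.id + (η : End K V)) = W' then XX g C else 0 := by
  have hAS : A ≤ S := hWS ▸ inf_le_right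
  have hAW : A ≤ W := hWS ▸ inf_le_left
  have hAg : Inv (g : End K V) A := by
    rw [← hWS]
    exact fun v hv => ⟨hWg v hv.1, hSg v hv.2⟩
  -- `P` is injective on `W'`
  let j : W' →ₗ[K] V := P ∘ₗ W'.subtype
  have hj : LinearMap.ker j = ⊥ := by
    rw [LinearMap.ker_eq_bot']
    intro w hw
    have h1 : P (w : V) = 0 := hw
    have h2 := hP4 w (hW' w.2)
    rw [h1, sub_zero] at h2
    have h3 : (w : V) ∈ W' ⊓ S := ⟨w.2, hAS h2⟩
    rw [hW'S] at h3
    exact Subtype.ext ((Submodule.mem_bot K).1 h3)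
  obtain ⟨k, hk⟩ := LinearMap.exists_leftInverse_of_injective j hj
  let k' : End K V := W'.subtype ∘ₗ k
  have hk1 : ∀ v, k' v ∈ W' := fun v => (k v).2
  have hk2 : ∀ w ∈ W', k' (P w) = w := fun w hw => congrArg Subtype.val (LinearMap.congr_fun hk ⟨w, hw⟩)
  have hPP : ∀ v, P (P v) = P v := fun v => hP3 _ (hP1 v)
  let η₀ : End K V := (k' - P ∘ₗ k') ∘ₗ P
  have hη₀ : ∀ v, η₀ v = k' (P v) - P (k' (P v)) := fun v => rfl
  have hη : η₀ ∈ NN S A := by
    refine ⟨fun v => ?_, fun v hv => ?_⟩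
    · rw [hη₀]
      exact hP4 _ (hW' (hk1 _))
    · rw [hη₀, hP2 v hv, map_zero, map_zero, sub_zero]
  set C₀ : Submodule K V := W'.map P with hC₀
  have hC₀R : C₀ ≤ R := by
    rintro _ ⟨v, _, rfl⟩
    exact hP1 v
  have h0 : ∀ w ∈ W', P w + η₀ (P w) = w := by
    intro w hw
    rw [hη₀, hPP, hk2 w hw]
    abel
  have hmap : C₀.map (LinearMap.id + η₀) = W' := by
    apply le_antisymm
    · rintro _ ⟨_, ⟨w, hw, rfl⟩, rfl⟩
      show P w + η₀ (P w) ∈ W'
      rw [h0 w hw]
      exact hw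
    · intro w hw
      refine ⟨P w, ⟨w, hw, rfl⟩, ?_⟩
      exact h0 w hw
  -- the condition
  have hcond : ∀ C ≤ R, ∀ η : NN S A, C.map (LinearMap.id + (η : End K V)) = W' ↔
      C = C₀ ∧ ∀ v ∈ C₀, (η : End K V) v = η₀ v := by
    intro C hC η
    constructor
    · intro h1
      have h2 : ∀ c ∈ C, P (c + (η : End K V) c) = c := by
        intro c hc
        rw [map_add, hP2 _ (hAS (η.2.1 c)), add_zero, hP3 c (hC hc)]
      have h3 : C = C₀ := by
        apply le_antisymm
        · intro c hc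
          refine ⟨c + (η : End K V) c, ?_, h2 c hc⟩
          show c + (η : End K V) c ∈ W'
          rw [← h1]
          exact ⟨c, hc, rfl⟩
        · rintro _ ⟨w, hw, rfl⟩
          have h4 : w ∈ W' := hw
          rw [← h1] at h4
          obtain ⟨c, hc, rfl⟩ := h4
          have h5 := h2 c hc
          show P (c + (η : End K V) c) ∈ C
          rw [h5]
          exact hc
      refine ⟨h3, fun v hv => ?_⟩
      rw [← h3] at hv
      have h4 : v + (η : End K V) v ∈ W' := by
        rw [← h1]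
        exact ⟨v, hv, rfl⟩
      have h5 := h0 _ h4
      rw [h2 v hv] at h5
      exact (add_left_cancel h5).symm
    · rintro ⟨rfl, h2⟩
      rw [← hmap]
      apply le_antisymm
      · rintro _ ⟨c, hc, rfl⟩
        refine ⟨c, hc, ?_⟩
        show c + η₀ c = c + (η : End K V) c
        rw [h2 c hc]
      · rintro _ ⟨c, hc, rfl⟩
        refine ⟨c, hc, ?_⟩
        show c + (η : End K V) c = c + η₀ c
        rw [h2 c hc]
  -- the right hand side
  have hR : ∑ C ∈ Finset.univ.filter (fun C : Submodule K V => C ≤ R), ∑ η : NN S A,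
      (if C.map (LinearMap.id + (η : End K V)) = W' then XX g C else 0) =
      ∑ η : NN S A, if (∀ v ∈ C₀, (η : End K V) v = η₀ v) then XX g C₀ else 0 := by
    rw [Finset.sum_eq_single_of_mem C₀ (by rw [Finset.mem_filter]; exact ⟨Finset.mem_univ _, hC₀R⟩)]
    · refine Finset.sum_congr rfl fun η _ => ?_
      have h1 := hcond C₀ hC₀R η
      simp only [true_and] at h1
      simp only [h1]
    · intro C hC hne
      refine Finset.sum_eq_zero fun η _ => ?_
      rw [Finset.mem_filter] at hC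
      rw [if_neg (fun h => hne ((hcond C hC.2 η).1 h).1)]
  rw [hR]
  -- the left hand side
  have hginv : ∀ v ∈ A, g.symm v ∈ A := by
    intro v hv
    rw [← map_mem_iff hAg, g.apply_symm_apply]
    exact hv
  have hginvS : ∀ v ∈ S, g v ∈ S := hSg
  let κ : End K V := (g.symm : V →ₗ[K] V) ∘ₗ η₀ ∘ₗ (g : V →ₗ[K] V)
  have hκ : ∀ v, κ v = g.symm (η₀ (g v)) := fun v => rfl
  have hκN : κ ∈ NN S A := by
    refine ⟨fun v => hginv _ (hη.1 _), fun v hv => ?_⟩
    rw [hκ, hη.2 _ (hginvS v hv), map_zero]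
  unfold GG
  -- the new variable is `φ + 2 η₀ - κ`
  let δ : NN S A := ⟨η₀, hη⟩ + ⟨η₀, hη⟩ - ⟨κ, hκN⟩
  have hδ : (δ : End K V) = η₀ + η₀ - κ := rfl
  refine Fintype.sum_equiv (Equiv.addRight δ) _ _ ?_
  intro φ
  show (if Inv (tw g φ) W' then b (tw g φ) W' else 0) =
    if (∀ v ∈ C₀, (φ + δ : End K V) v = η₀ v) then XX g C₀ else 0
  set e : V ≃ₗ[K] V := unip η₀ (fun v => sq_zero hAS hη hη v) with he
  have he1 : ∀ v, e v = v + η₀ v := fun v => rfl
  set φ' : End K V := (φ : End K V) + η₀ - κ with hφ'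
  have hφ'N : φ' ∈ NN S A := (NN S A).sub_mem ((NN S A).add_mem φ.2 hη) hκN
  have hconj : ∀ v, tw g φ (e v) = e (tw g φ' v) := by
    intro v
    have h1 : (φ : End K V) (η₀ v) = 0 := sq_zero hAS φ.2 hη v
    have h2 : η₀ (g ((φ : End K V) v)) = 0 := hη.2 _ (hAS (hAg _ (φ.2.1 v)))
    have h3 : η₀ (g (η₀ v)) = 0 := hη.2 _ (hAS (hAg _ (hη.1 v)))
    have h4 : η₀ (η₀ (g v)) = 0 := sq_zero hAS hη hη _
    rw [tw_apply, tw_apply, he1, he1, hφ', LinearMap.sub_apply, LinearMap.add_apply, hκ]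
    simp only [map_add, map_sub, g.apply_symm_apply, h1, h2, h3, h4, map_zero]
    abel
  have hWe : W' = C₀.map (e : V →ₗ[K] V) := hmap.symm
  have hb : b (tw g φ) W' = b (tw g φ') C₀ := by
    rw [hWe]
    exact b_conj e hconj C₀
  have hI : Inv (tw g φ) W' ↔ Inv (tw g φ') C₀ := by
    rw [hWe]
    constructor
    · intro h v hv
      have h1 := h (e v) ⟨v, hv, rfl⟩
      rw [hconj] at h1
      obtain ⟨w, hw, hwe⟩ := h1
      have h2 : w = tw g φ' v := e.injective hwe
      rw [← h2]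
      exact hw
    · rintro h _ ⟨v, hv, rfl⟩
      show tw g φ (e v) ∈ _
      rw [hconj]
      exact ⟨_, h v hv, rfl⟩
  have hI2 : Inv (tw g φ') C₀ ↔ (∀ v ∈ C₀, φ' v = 0) ∧ Inv (g : End K V) C₀ := by
    constructor
    · intro h
      have h1 : ∀ v ∈ C₀, φ' v = 0 := by
        intro v hv
        have h2 : g (v + φ' v) ∈ R := hC₀R (h v hv)
        rw [map_add] at h2
        have h3 : g (φ' v) ∈ R := by
          have h4 := R.sub_mem h2 (hRg v (hC₀R hv))
          have h5 : g v + g (φ' v) - (g : End K V) v = g (φ' v) := by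
            show g v + g (φ' v) - g v = _
            abel
          rwa [h5] at h4
        have h4 : g (φ' v) ∈ S := hAS (hAg _ (hφ'N.1 v))
        have h5 : g (φ' v) = 0 := by
          rw [← hP3 _ h3, hP2 _ h4]
        exact (LinearEquiv.map_eq_zero_iff g).1 h5
      refine ⟨h1, fun v hv => ?_⟩
      have h2 := h v hv
      rw [tw_apply, h1 v hv, add_zero] at h2
      exact h2
    · rintro ⟨h1, h2⟩ v hv
      rw [tw_apply, h1 v hv, add_zero]
      exact h2 v hv
  have hcnd : (∀ v ∈ C₀, ((φ : End K V) + (δ : End K V)) v = η₀ v) ↔ ∀ v ∈ C₀, φ' v = 0 := by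
    refine forall₂_congr fun v _ => ?_
    rw [hδ, hφ']
    simp only [LinearMap.sub_apply, LinearMap.add_apply]
    constructor
    · intro h
      have h1 : (φ : End K V) v + η₀ v - κ v = ((φ : End K V) v + (η₀ v + η₀ v - κ v)) - η₀ v := by abel
      rw [h1, h, sub_self]
    · intro h
      have h1 : (φ : End K V) v + (η₀ v + η₀ v - κ v) = ((φ : End K V) v + η₀ v - κ v) + η₀ v := by abel
      rw [h1, h, zero_add]
  rw [hb]
  simp only [hI, hI2, hcnd]
  by_cases h1 : ∀ v ∈ C₀, φ' v = 0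
  · have h2 : b (tw g φ') C₀ = b (g : End K V) C₀ := b_congr fun v hv => by
      rw [tw_apply, h1 v hv, add_zero]
      rfl
    rw [if_pos h1, XX, h2]
    by_cases h3 : Inv (g : End K V) C₀
    · rw [if_pos ⟨h1, h3⟩, if_pos h3]
    · rw [if_neg (fun h => h3 h.2), if_neg h3]
  · rw [if_neg (fun h => h1 h.1), if_neg h1]

open Classical in
/-- case (c) -/
theorem sum_GG [Fintype (NN S A)] [Fintype (Submodule K V)] (hWS : W ⊓ S = A) {g : V ≃ₗ[K] V}
    (hSg : Inv (g : End K V) S) (hWg : Inv (g : End K V) W) :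
    ∑ W' ∈ Finset.univ.filter (fun W' : Submodule K V => W' ≤ W ∧ W' ⊓ S = ⊥), GG g S A W' =
      Fintype.card (NN S A) * ((finrank K W : ℤ) - finrank K A) := by
  have hAS : A ≤ S := hWS ▸ inf_le_right
  have hAW : A ≤ W := hWS ▸ inf_le_left
  have hAg : Inv (g : End K V) A := by
    rw [← hWS]
    exact fun v hv => ⟨hWg v hv.1, hSg v hv.2⟩
  -- a complement
  obtain ⟨R₀, hR₀⟩ := Submodule.exists_isCompl A
  set R : Submodule K V := R₀ ⊓ W with hR
  have hRW : R ≤ W := inf_le_right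
  have hRA : R ⊓ A = ⊥ := by
    rw [eq_bot_iff, ← hR₀.inf_eq_bot]
    exact le_inf inf_le_right (inf_le_left.trans inf_le_left)
  have hsup : A ⊔ R = W := by
    rw [hR, ← sup_inf_assoc_of_le R₀ hAW, hR₀.sup_eq_top, top_inf_eq]
  have hRS : R ⊓ S = ⊥ := by
    rw [eq_bot_iff]
    intro v hv
    have h1 : v ∈ R ⊓ A := ⟨hv.1, by rw [← hWS]; exact ⟨hRW hv.1, hv.2⟩⟩
    rwa [hRA] at h1
  obtain ⟨P, hP1, hP2, hP3⟩ := exists_proj hRS
  have hP4 : ∀ v ∈ W, v - P v ∈ A := by
    intro v hv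
    rw [← hsup] at hv
    obtain ⟨a, ha, r, hr, rfl⟩ := Submodule.mem_sup.1 hv
    rw [map_add, hP2 a (hAS ha), hP3 r hr, zero_add, add_sub_cancel_right]
    exact ha
  have hdim : (finrank K W : ℤ) - finrank K A = finrank K R := by
    have h1 := Submodule.finrank_sup_add_finrank_inf_eq A R
    rw [hsup, inf_comm, hRA, finrank_bot] at h1
    omega
  -- normalise `g`
  have hginv : ∀ v ∈ A, g.symm v ∈ A := by
    intro v hv
    rw [← map_mem_iff hAg, g.apply_symm_apply]
    exact hv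
  let ψ₀ : End K V := -((g.symm : V →ₗ[K] V) ∘ₗ (LinearMap.id - P) ∘ₗ (g : V →ₗ[K] V) ∘ₗ P)
  have hψ₀ : ∀ v, ψ₀ v = -(g.symm (g (P v) - P (g (P v)))) := fun v => rfl
  have hψN : ψ₀ ∈ NN S A := by
    refine ⟨fun v => ?_, fun v hv => ?_⟩
    · rw [hψ₀]
      exact A.neg_mem (hginv _ (hP4 _ (hWg _ (hRW (hP1 v)))))
    · rw [hψ₀, hP2 v hv, map_zero, map_zero, sub_zero, map_zero, neg_zero]
  let g₁ : V ≃ₗ[K] V := (unip ψ₀ (fun v => sq_zero hAS hψN hψN v)).trans g
  have hg₁ : ∀ v, g₁ v = g (v + ψ₀ v) := fun v => rfl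
  have hg₁S : Inv (g₁ : End K V) S := by
    intro v hv
    show g₁ v ∈ S
    rw [hg₁, hψN.2 v hv, add_zero]
    exact hSg v hv
  have hg₁W : Inv (g₁ : End K V) W := by
    intro v hv
    show g₁ v ∈ W
    rw [hg₁]
    exact hWg _ (W.add_mem hv (hAW (hψN.1 v)))
  have hg₁R : Inv (g₁ : End K V) R := by
    intro v hv
    show g₁ v ∈ R
    rw [hg₁, hψ₀, hP3 v hv, map_add, map_neg, g.apply_symm_apply]
    have h1 : g v + -(g v - P (g v)) = P (g v) := by abel
    rw [h1]
    exact hP1 _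
  have e1 : ∀ W' : Submodule K V, GG g S A W' = GG g₁ S A W' := fun W' => (GG_translate hAS hψN hg₁).symm
  rw [Finset.sum_congr rfl fun W' _ => e1 W', Finset.sum_congr rfl fun W' hW' =>
    GG_graph hWS hg₁S hg₁W hg₁R hP1 hP2 hP3 hP4 (Finset.mem_filter.1 hW').2.1 (Finset.mem_filter.1 hW').2.2,
    Finset.sum_comm, hdim, ← sum_b hg₁R, Finset.mul_sum]
  have e2 : ∑ W' ∈ Finset.univ.filter (fun W' : Submodule K V => W' ≤ R ∧ Inv (g₁ : End K V) W'),
      (Fintype.card (NN S A) : ℤ) * b (g₁ : End K V) W' =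
      ∑ C ∈ Finset.univ.filter (fun W' : Submodule K V => W' ≤ R), (Fintype.card (NN S A) : ℤ) * XX g₁ C := by
    rw [← Finset.filter_filter, Finset.sum_filter]
    refine Finset.sum_congr rfl fun C _ => ?_
    rw [XX]
    by_cases h1 : Inv (g₁ : End K V) C
    · rw [if_pos h1, if_pos h1]
    · rw [if_neg h1, if_neg h1, mul_zero]
  rw [e2]
  refine Finset.sum_congr rfl fun C hC => ?_
  rw [Finset.mem_filter] at hC
  rw [Finset.sum_comm]
  have e3 : ∀ η : NN S A, (∑ W' ∈ Finset.univ.filter (fun W' : Submodule K V => W' ≤ W ∧ W' ⊓ S = ⊥),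
      if C.map (LinearMap.id + (η : End K V)) = W' then XX g₁ C else 0) = XX g₁ C := by
    intro η
    rw [Finset.sum_ite_eq, if_pos]
    rw [Finset.mem_filter]
    refine ⟨Finset.mem_univ _, ?_, ?_⟩
    · rintro _ ⟨c, hc, rfl⟩
      exact W.add_mem (hRW (hC.2 hc)) (hAW (η.2.1 c))
    · rw [eq_bot_iff]
      rintro _ ⟨⟨c, hc, rfl⟩, h2⟩
      have h3 : c + (η : End K V) c ∈ S := h2
      have h4 : c ∈ S := by
        have h5 := S.sub_mem h3 (hAS (η.2.1 c))
        rwa [add_sub_cancel_right] at h5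
      have h5 : c ∈ R ⊓ S := ⟨hC.2 hc, h4⟩
      rw [hRS] at h5
      have h6 : c = 0 := (Submodule.mem_bot K).1 h5
      rw [h6, map_zero]
      exact Submodule.zero_mem _
  rw [Finset.sum_congr rfl fun η _ => e3 η, Finset.sum_const, Finset.card_univ, nsmul_eq_mul]

end Main

/-- **cuspidality** -/
theorem cusp_gen : ∀ (W S A : Submodule K V) (g : V ≃ₗ[K] V) [Fintype (NN S A)], W ⊓ S = A → Inv (g : End K V) S →
    Inv (g : End K V) W → A ≠ ⊥ → ¬ W ≤ S → ∑ φ : NN S A, b (tw g φ) W = 0 := by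
  classical
  have := Fintype.ofFinite (Submodule K V)
  intro W
  induction W using WellFoundedLT.induction with
  | ind W ih =>
    intro S A g _ hAdef hSg hWg hA hWS
    have hAS : A ≤ S := hAdef ▸ inf_le_right
    have hAW : A ≤ W := hAdef ▸ inf_le_left
    have hAg : Inv (g : End K V) A := by
      rw [← hAdef]
      exact fun v hv => ⟨hWg v hv.1, hSg v hv.2⟩
    have h1 : ∑ φ : NN S A, b (tw g φ) W = Fintype.card (NN S A) * (finrank K W : ℤ) -
        ∑ W' ∈ Finset.univ.filter (fun W' : Submodule K V => W' < W), GG g S A W' := by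
      have h2 : ∀ φ : NN S A, b (tw g φ) W = (finrank K W : ℤ) -
          ∑ W' ∈ Finset.univ.filter (fun W' : Submodule K V => W' < W),
            if Inv (tw g φ) W' then b (tw g φ) W' else 0 := by
        intro φ
        rw [b_eq, ← Finset.sum_filter, Finset.filter_filter]
      rw [Finset.sum_congr rfl fun φ _ => h2 φ, Finset.sum_sub_distrib, Finset.sum_const, Finset.card_univ,
        nsmul_eq_mul, Finset.sum_comm]
      rfl
    rw [h1]
    have h2 : ∀ W' ∈ Finset.univ.filter (fun W' : Submodule K V => W' < W), GG g S A W' =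
        (if W' ≤ A then Fintype.card (NN S A) * XX g W' else 0) + if W' ⊓ S = ⊥ then GG g S A W' else 0 := by
      intro W' hW'
      have hlt : W' < W := (Finset.mem_filter.1 hW').2
      by_cases h3 : W' ≤ A
      · have h4 := GG_le (S := S) (A := A) (g := g) (h3.trans hAS)
        rw [if_pos h3]
        by_cases h5 : W' ⊓ S = ⊥
        · have h6 : W' = ⊥ := by
            rw [inf_eq_left.2 (h3.trans hAS)] at h5
            exact h5
          have h7 : XX g W' = 0 := by
            rw [XX, h6, b_bot, ite_self]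
          rw [if_pos h5, h4, h7, mul_zero, add_zero]
        · rw [if_neg h5, add_zero, h4]
      · rw [if_neg h3, zero_add]
        by_cases h5 : W' ⊓ S = ⊥
        · rw [if_pos h5]
        · rw [if_neg h5]
          refine GG_eq_zero hAS hSg (by rw [← hAdef]; exact le_inf (inf_le_left.trans hlt.le) inf_le_right) ?_
          intro g' _ h6 h7
          refine ih W' hlt S _ g' rfl h6 h7 h5 ?_
          intro h8
          exact h3 (by rw [← hAdef]; exact le_inf hlt.le h8)
    rw [Finset.sum_congr rfl h2, Finset.sum_add_distrib, ← Finset.sum_filter, ← Finset.sum_filter,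
      Finset.filter_filter, Finset.filter_filter]
    have hAltW : A < W := lt_of_le_of_ne hAW fun h => hWS (by rw [← h]; exact hAS)
    have e1 : Finset.univ.filter (fun W' : Submodule K V => W' < W ∧ W' ≤ A) =
        Finset.univ.filter (fun W' : Submodule K V => W' ≤ A) := by
      ext W'
      simp only [Finset.mem_filter, Finset.mem_univ, true_and, and_iff_right_iff_imp]
      exact fun h => h.trans_lt hAltW
    have e2 : Finset.univ.filter (fun W' : Submodule K V => W' < W ∧ W' ⊓ S = ⊥) =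
        Finset.univ.filter (fun W' : Submodule K V => W' ≤ W ∧ W' ⊓ S = ⊥) := by
      ext W'
      simp only [Finset.mem_filter, Finset.mem_univ, true_and]
      constructor
      · rintro ⟨h3, h4⟩
        exact ⟨h3.le, h4⟩
      · rintro ⟨h3, h4⟩
        refine ⟨lt_of_le_of_ne h3 ?_, h4⟩
        rintro rfl
        exact hA (hAdef ▸ h4)
    rw [e1, e2, sum_GG hAdef hSg hWg, ← Finset.mul_sum]
    have e3 : ∑ W' ∈ Finset.univ.filter (fun W' : Submodule K V => W' ≤ A), XX g W' = finrank K A := by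
      rw [← sum_b hAg]
      unfold XX
      rw [← Finset.sum_filter, Finset.filter_filter]
    rw [e3]
    ring

end Cfsg.Agent.H739.PQ.E7
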