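import Mathlib

/-!
# The function `b` on the invariant subspaces (helper739)

`b g W = dim W - ∑ b g W'`, the sum over the `g`-invariant `W' < W`.
* `b_congr`, `b_conj`, `sum_b`;
* `cusp` : cuspidality.
-/

set_option autoImplicit false

namespace Cfsg.Agent.H739.PQ.E7

open Module

variable {K V : Type*} [Field K] [AddCommGroup V] [Module K V] [Finite V]

/-- `W` is invariant under `g` -/
def Inv (g : End K V) (W : Submodule K V) : Prop := ∀ v ∈ W, g v ∈ W

instance finite_sub : Finite (Submodule K V) := Finite.of_injective (fun W : Submodule K V => (W : Set V))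
  SetLike.coe_injective

open Classical in
/-- the alternating function on the invariant subspaces -/
noncomputable def b (g : End K V) : Submodule K V → ℤ :=
  WellFounded.fix (r := fun W W' : Submodule K V => W < W') wellFounded_lt fun W ih =>
    haveI := Fintype.ofFinite {W' : Submodule K V // W' < W ∧ Inv g W'}
    (finrank K W : ℤ) - ∑ W' : {W' : Submodule K V // W' < W ∧ Inv g W'}, ih W'.1 W'.2.1

open Classical in
theorem b_eq [Fintype (Submodule K V)] (g : End K V) (W : Submodule K V) :
    b g W = (finrank K W : ℤ) - ∑ W' ∈ Finset.univ.filter (fun W' : Submodule K V => W' < W ∧ Inv g W'), b g W' := by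
  rw [b, WellFounded.fix_eq]
  congr 1
  rw [Finset.sum_subtype (Finset.univ.filter (fun W' : Submodule K V => W' < W ∧ Inv g W'))
    (p := fun W' : Submodule K V => W' < W ∧ Inv g W') (fun x => by simp)]

theorem b_bot (g : End K V) : b g (⊥ : Submodule K V) = 0 := by
  classical
  have := Fintype.ofFinite (Submodule K V)
  rw [b_eq, Finset.filter_false_of_mem, Finset.sum_empty, finrank_bot]
  · rfl
  · rintro W' _ ⟨h, -⟩
    exact not_lt_bot h

/-- locality -/
theorem b_congr {g g' : End K V} : ∀ {W : Submodule K V}, (∀ v ∈ W, g v = g' v) → b g W = b g' W := by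
  classical
  have := Fintype.ofFinite (Submodule K V)
  intro W
  induction W using WellFoundedLT.induction with
  | ind W ih =>
    intro h
    rw [b_eq, b_eq]
    congr 1
    have h1 : ∀ W' < W, (Inv g W' ↔ Inv g' W') := by
      intro W' hW'
      constructor
      · intro h2 v hv
        rw [← h v (hW'.le hv)]
        exact h2 v hv
      · intro h2 v hv
        rw [h v (hW'.le hv)]
        exact h2 v hv
    have h2 : Finset.univ.filter (fun W' : Submodule K V => W' < W ∧ Inv g W') =
        Finset.univ.filter (fun W' : Submodule K V => W' < W ∧ Inv g' W') := by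
      ext W'
      rw [Finset.mem_filter, Finset.mem_filter]
      constructor
      · rintro ⟨h3, h4, h5⟩
        exact ⟨h3, h4, (h1 W' h4).1 h5⟩
      · rintro ⟨h3, h4, h5⟩
        exact ⟨h3, h4, (h1 W' h4).2 h5⟩
    rw [h2]
    refine Finset.sum_congr rfl fun W' hW' => ?_
    rw [Finset.mem_filter] at hW'
    exact ih W' hW'.2.1 fun v hv => h v (hW'.2.1.le hv)

/-- invariance under conjugation -/
theorem b_conj (e : V ≃ₗ[K] V) {g g' : End K V} (hg : ∀ v, g' (e v) = e (g v)) :
    ∀ W : Submodule K V, b g' (W.map (e : V →ₗ[K] V)) = b g W := by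
  classical
  have := Fintype.ofFinite (Submodule K V)
  intro W
  induction W using WellFoundedLT.induction with
  | ind W ih =>
    rw [b_eq, b_eq, LinearEquiv.finrank_map_eq]
    congr 1
    symm
    refine Finset.sum_bij (fun W' _ => W'.map (e : V →ₗ[K] V)) ?_ ?_ ?_ ?_
    · intro W' hW'
      rw [Finset.mem_filter] at hW' ⊢
      refine ⟨Finset.mem_univ _, ?_, ?_⟩
      · exact (Submodule.map_strictMono_of_injective e.injective) hW'.2.1
      · rintro _ ⟨v, hv, rfl⟩
        show g' (e v) ∈ _
        rw [hg]
        exact Submodule.mem_map_of_mem (hW'.2.2 v hv)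
    · intro W₁ _ W₂ _ h
      exact Submodule.map_injective_of_injective e.injective h
    · intro W' hW'
      rw [Finset.mem_filter] at hW'
      refine ⟨W'.map (e.symm : V →ₗ[K] V), ?_, ?_⟩
      · rw [Finset.mem_filter]
        refine ⟨Finset.mem_univ _, ?_, ?_⟩
        · have h1 := (Submodule.map_strictMono_of_injective (f := (e.symm : V →ₗ[K] V)) e.symm.injective) hW'.2.1
          rwa [← Submodule.map_comp, LinearEquiv.comp_coe, LinearEquiv.self_trans_symm, LinearEquiv.refl_toLinearMap,
            Submodule.map_id] at h1
        · rintro _ ⟨v, hv, rfl⟩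
          have h1 := hW'.2.2 v hv
          have h2 := hg (e.symm v)
          rw [e.apply_symm_apply] at h2
          rw [h2] at h1
          have h3 : g (e.symm v) = e.symm (e (g (e.symm v))) := (e.symm_apply_apply _).symm
          show g (e.symm v) ∈ _
          rw [h3]
          exact Submodule.mem_map_of_mem h1
      · rw [← Submodule.map_comp, LinearEquiv.comp_coe, LinearEquiv.symm_trans_self, LinearEquiv.refl_toLinearMap,
          Submodule.map_id]
    · intro W' hW'
      rw [Finset.mem_filter] at hW'
      exact (ih W' hW'.2.1).symm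

open Classical in
/-- the sum over all invariant subspaces of an invariant subspace -/
theorem sum_b [Fintype (Submodule K V)] {g : End K V} {W : Submodule K V} (hW : Inv g W) :
    ∑ W' ∈ Finset.univ.filter (fun W' : Submodule K V => W' ≤ W ∧ Inv g W'), b g W' = finrank K W := by
  have h1 : Finset.univ.filter (fun W' : Submodule K V => W' ≤ W ∧ Inv g W') =
      insert W (Finset.univ.filter (fun W' : Submodule K V => W' < W ∧ Inv g W')) := by
    ext W'
    rw [Finset.mem_insert, Finset.mem_filter, Finset.mem_filter]
    constructor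
    · rintro ⟨-, h2, h3⟩
      rcases h2.eq_or_lt with h4 | h4
      · exact Or.inl h4
      · exact Or.inr ⟨Finset.mem_univ _, h4, h3⟩
    · rintro (rfl | ⟨-, h2, h3⟩)
      · exact ⟨Finset.mem_univ _, le_rfl, hW⟩
      · exact ⟨Finset.mem_univ _, h2.le, h3⟩
  rw [h1, Finset.sum_insert (by simp), b_eq g W, sub_add_cancel]

end Cfsg.Agent.H739.PQ.E7
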