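import Cfsg.Agent.H739.PQ.E7.Beta
import Cfsg.Agent.H594.PQ.E7Torus
import Cfsg.Agent.Blocks.RegularCount

/-!
# The generalised character `ψ` (helper739)

`exists_psi` (T3 of tools/plans/S4612_e7_510.md).
-/

set_option autoImplicit false
set_option linter.unusedSectionVars false

namespace Cfsg.Agent.H739.PQ.E7

open Cfsg Matrix Cfsg.Agent.H317.PQ
open scoped ComplexConjugate

variable {K : Type} [Field K] [Finite K]

/-- `tau` as an automorphism -/
def tauE : GL (Fin 5) K ≃* GL (Fin 5) K where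
  toFun := tau
  invFun := tau
  left_inv g := by
    apply Units.ext
    show (((tau g)⁻¹ : GL (Fin 5) K) : Matrix (Fin 5) (Fin 5) K)ᵀ = g
    have h1 : ((tau g)⁻¹ : GL (Fin 5) K) = tau g⁻¹ := (H594.PQ.tau_inv g).symm
    rw [h1]
    show ((((g⁻¹)⁻¹ : GL (Fin 5) K) : Matrix (Fin 5) (Fin 5) K)ᵀ)ᵀ = g
    rw [inv_inv, transpose_transpose]
  right_inv g := by
    apply Units.ext
    show (((tau g)⁻¹ : GL (Fin 5) K) : Matrix (Fin 5) (Fin 5) K)ᵀ = g
    have h1 : ((tau g)⁻¹ : GL (Fin 5) K) = tau g⁻¹ := (H594.PQ.tau_inv g).symm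
    rw [h1]
    show ((((g⁻¹)⁻¹ : GL (Fin 5) K) : Matrix (Fin 5) (Fin 5) K)ᵀ)ᵀ = g
    rw [inv_inv, transpose_transpose]
  map_mul' := tau_mul

theorem orderOf_tau (g : GL (Fin 5) K) : orderOf (tau g) = orderOf g := tauE.orderOf_eq g

theorem hasSL_map {H : Subgroup (GL (Fin 5) K)} (hH : HasSL H) : HasSL (H.map (tauE (K := K)).toMonoidHom) := by
  intro g hg
  refine ⟨tau g, hH _ ?_, tauE.left_inv g⟩
  show ((((g⁻¹ : GL (Fin 5) K) : Matrix (Fin 5) (Fin 5) K))ᵀ).det = 1
  have h1 : (g : Matrix (Fin 5) (Fin 5) K).det * ((g⁻¹ : GL (Fin 5) K) : Matrix (Fin 5) (Fin 5) K).det = 1 := by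
    rw [← det_mul, ← Units.val_mul, mul_inv_cancel, Units.val_one, det_one]
  rw [hg, one_mul] at h1
  rw [det_transpose, h1]

/-- **T3** -/
theorem exists_psi (K : Type) [Field K] [Finite K] {p : ℕ} (hp : p.Prime) (ho : ord (Nat.card K) p = 5) :
    ∃ ψ : GL (Fin 5) K → ℂ, Psi K p ψ := by
  classical
  obtain ⟨β, hβg, hβc, hβi, hβ1, hβ2, hβ3⟩ := exists_beta K
  obtain ⟨f, hfg, hfp, hf1, hf2, hf3⟩ := H594.PQ.exists_f K hp ho
  have hpF : Fact p.Prime := ⟨hp⟩
  have hirr : ∀ g : GL (Fin 5) K, p ∣ orderOf g → Irr g := fun g hg => H594.PQ.irr_of_dvd hp ho hg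
  have hfβ : ∀ g, f g * (β g : ℂ) = 5 * f g := by
    intro g
    by_cases h : f g = 0
    · rw [h, zero_mul, mul_zero]
    · rw [hβi g (hirr g (hfp g h))]
      push_cast
      ring
  have hβτ : ∀ g, f g * (β (tau g) : ℂ) = 5 * f g := by
    intro g
    by_cases h : f g = 0
    · rw [h, zero_mul, mul_zero]
    · rw [hβi (tau g) (hirr _ (by rw [orderOf_tau]; exact hfp g h))]
      push_cast
      ring
  have hτβ : ∀ g, (β g : ℂ) * conj (f (tau g)) = 5 * conj (f (tau g)) := by
    intro g
    by_cases h : f (tau g) = 0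
    · rw [h, map_zero, mul_zero, mul_zero]
    · rw [hβi g (hirr _ (by rw [← orderOf_tau]; exact hfp _ h))]
      push_cast
      ring
  have hcβ : ∀ n : ℤ, conj (n : ℂ) = n := fun n => map_intCast (starRingEnd ℂ) n
  -- the integral sums
  have cast1 : ∀ H : Subgroup (GL (Fin 5) K), HasSL H → ∀ [Fintype H], ∑ h : H, (β h : ℂ) = Nat.card H := by
    intro H hH _
    have h1 := hβ1 H hH
    rw [finsum_eq_sum_of_fintype] at h1
    exact_mod_cast h1
  have cast2 : ∀ H : Subgroup (GL (Fin 5) K), HasSL H → ∀ [Fintype H], ∑ h : H, (β h : ℂ) * (β h : ℂ) = 5 * Nat.card H := by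
    intro H hH _
    have h1 := hβ2 H hH
    rw [finsum_eq_sum_of_fintype] at h1
    exact_mod_cast h1
  have cast3 : ∀ H : Subgroup (GL (Fin 5) K), HasSL H → ∀ [Fintype H],
      ∑ h : H, (β h : ℂ) * (β (tau (h : GL (Fin 5) K)) : ℂ) = 5 * Nat.card H := by
    intro H hH _
    have h1 := hβ3 H hH
    rw [finsum_eq_sum_of_fintype] at h1
    exact_mod_cast h1
  have sumτ : ∀ H : Subgroup (GL (Fin 5) K), HasSL H → ∀ [Fintype H], ∑ h : H, f (tau (h : GL (Fin 5) K)) = -Nat.card H := by
    intro H hH _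
    have := Fintype.ofFinite (H.map (tauE (K := K)).toMonoidHom)
    let e : H ≃* H.map (tauE (K := K)).toMonoidHom := H.equivMapOfInjective _ tauE.injective
    have h1 := hf1 _ (hasSL_map hH)
    rw [finsum_eq_sum_of_fintype, ← Nat.card_congr e.toEquiv] at h1
    rw [← h1]
    exact Fintype.sum_equiv e.toEquiv _ _ fun h => rfl
  refine ⟨fun g => f g + β g, ?_, ?_, ?_, ?_, ?_, ?_⟩
  · exact Cfsg.Agent.OddOrderCharacters.FeitCoherence.isGen_add hfg hβg
  · intro S h0 h1 m hm
    have := Fintype.ofFinite (Uni S)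
    rw [finsum_eq_sum_of_fintype, Finset.sum_add_distrib]
    have h2 : ∑ u : Uni S, (β (m * (u : GL (Fin 5) K)) : ℂ) = 0 := by
      have h3 := hβc S h0 h1 m hm
      rw [finsum_eq_sum_of_fintype] at h3
      exact_mod_cast h3
    rw [h2, add_zero]
    refine Finset.sum_eq_zero fun u _ => ?_
    by_contra h3
    have h4 : Pres (m * (u : GL (Fin 5) K)) S := by
      intro v hv
      rw [Units.val_mul, ← mulVec_mulVec, u.2.2 v hv]
      exact hm v hv
    rcases hirr _ (hfp _ h3) S h4 with h5 | h5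
    · exact h0 h5
    · exact h1 h5
  · intro H hH
    have := Fintype.ofFinite H
    have e1 := hf1 H hH
    have e2 := hf2 H hH
    rw [finsum_eq_sum_of_fintype] at e1 e2 ⊢
    have h1 : ∀ h : H, (f h + β h) * conj (f h + β h) = f h * conj (f h) + 5 * f h + 5 * conj (f h) + (β h : ℂ) * (β h : ℂ) := by
      intro h
      have h2 : (β (h : GL (Fin 5) K) : ℂ) * conj (f h) = 5 * conj (f h) := by
        have h3 := congrArg conj (hfβ h)
        rw [map_mul, map_mul, hcβ, mul_comm] at h3
        rw [h3]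
        congr 1
        exact Complex.conj_ofNat 5
      rw [map_add, hcβ, add_mul, mul_add, mul_add, hfβ, h2]
      ring
    rw [Finset.sum_congr rfl fun h _ => h1 h, Finset.sum_add_distrib, Finset.sum_add_distrib, Finset.sum_add_distrib,
      ← Finset.mul_sum, ← Finset.mul_sum, ← map_sum, e1, e2, cast2 H hH, map_neg, Complex.conj_natCast]
    ring
  · intro H hH
    have := Fintype.ofFinite H
    have e1 := hf1 H hH
    have e2 := hf3 H hH
    rw [finsum_eq_sum_of_fintype] at e1 e2 ⊢
    have h1 : ∀ h : H, (f h + β h) * conj (f (tau (h : GL (Fin 5) K)) + β (tau (h : GL (Fin 5) K))) =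
        f h * conj (f (tau (h : GL (Fin 5) K))) + 5 * f h + 5 * conj (f (tau (h : GL (Fin 5) K))) +
          (β h : ℂ) * (β (tau (h : GL (Fin 5) K)) : ℂ) := by
      intro h
      rw [map_add, hcβ, add_mul, mul_add, mul_add, hβτ, hτβ]
      ring
    rw [Finset.sum_congr rfl fun h _ => h1 h, Finset.sum_add_distrib, Finset.sum_add_distrib, Finset.sum_add_distrib,
      ← Finset.mul_sum, ← Finset.mul_sum, ← map_sum, e1, e2, cast3 H hH, sumτ H hH, map_neg, Complex.conj_natCast]
    ring
  · intro H hH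
    have := Fintype.ofFinite H
    have e1 := hf1 H hH
    rw [finsum_eq_sum_of_fintype] at e1 ⊢
    rw [Finset.sum_add_distrib, e1, cast1 H hH]
    ring
  · intro H hH
    have := Fintype.ofFinite H
    have e1 := hf1 H hH
    rw [finsum_eq_sum_of_fintype] at e1
    have hN : (Nat.card H : ℂ) ≠ 0 := Nat.cast_ne_zero.2 Nat.card_pos.ne'
    -- `p` divides the order of `H`
    have hpH : p ∣ Nat.card H := by
      by_contra hcon
      have h1 : ∀ h : H, f h = 0 := by
        intro h
        by_contra h2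
        apply hcon
        have h3 := hfp _ h2
        rw [Subgroup.orderOf_coe] at h3
        exact h3.trans (orderOf_dvd_natCard h)
      rw [Finset.sum_eq_zero fun h _ => h1 h] at e1
      exact hN (neg_eq_zero.1 e1.symm)
    intro hz
    rw [finsum_eq_sum_of_fintype] at hz
    -- on the regular elements `ψ = β`
    have h1 : ∑ h : {h : H // ¬ p ∣ orderOf (h : GL (Fin 5) K)}, (f h.1 + β h.1) =
        ∑ h : H, (β h : ℂ) - ∑ h : H, if p ∣ orderOf (h : GL (Fin 5) K) then (5 : ℂ) else 0 := by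
      rw [← Finset.sum_sub_distrib]
      have h2 : ∀ h : H, (β h : ℂ) - (if p ∣ orderOf (h : GL (Fin 5) K) then (5 : ℂ) else 0) =
          if ¬ p ∣ orderOf (h : GL (Fin 5) K) then (f h + β h : ℂ) else 0 := by
        intro h
        by_cases h3 : p ∣ orderOf (h : GL (Fin 5) K)
        · rw [if_pos h3, if_neg (not_not.2 h3), hβi _ (hirr _ h3)]
          push_cast
          ring
        · rw [if_neg h3, if_pos h3]
          have h4 : f h = 0 := by
            by_contra h5
            exact h3 (hfp _ h5)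
          rw [h4]
          ring
      rw [Finset.sum_congr rfl fun h _ => h2 h, ← Finset.sum_filter]
      exact (Finset.sum_subtype _ (by simp) (fun h : H => (f h + β h : ℂ))).symm
    rw [h1, cast1 H hH, ← Finset.sum_filter, Finset.sum_const, nsmul_eq_mul] at hz
    -- counting
    have h2 : (Finset.univ.filter (fun h : H => p ∣ orderOf (h : GL (Fin 5) K))).card +
        Nat.card {x : H // ¬ p ∣ orderOf x} = Nat.card H := by
      rw [Nat.card_eq_fintype_card, Nat.card_eq_fintype_card, Fintype.card_subtype, ← Finset.card_univ,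
        ← Finset.card_filter_add_card_filter_not (s := Finset.univ) (p := fun h : H => p ∣ orderOf (h : GL (Fin 5) K))]
      simp only [Subgroup.orderOf_coe]
    have h3 := Cfsg.Agent.Blocks.RegularCount.not_dvd_card_regular (p := p) (G := H)
    have h4 : (Nat.card H : ℂ) = (Finset.univ.filter (fun h : H => p ∣ orderOf (h : GL (Fin 5) K))).card * 5 :=
      sub_eq_zero.1 hz
    have h5 : Nat.card H = (Finset.univ.filter (fun h : H => p ∣ orderOf (h : GL (Fin 5) K))).card * 5 := by
      exact_mod_cast h4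
    have h6 : 5 * Nat.card {x : H // ¬ p ∣ orderOf x} = 4 * Nat.card H := by omega
    have h7 : p ∣ 5 * Nat.card {x : H // ¬ p ∣ orderOf x} := by
      rw [h6]
      exact hpH.mul_left 4
    rcases hp.dvd_mul.1 h7 with h8 | h8
    · have h9 : p = 5 := (Nat.prime_dvd_prime_iff_eq hp (by norm_num)).1 h8
      subst h9
      have h10 : ((Nat.card K : ℕ) : ZMod 5) ^ 4 = 1 := by
        refine ZMod.pow_card_sub_one_eq_one ?_
        intro h11
        rw [ord, h11] at ho
        have h12 := orderOf_zero (M₀ := ZMod 5)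
        omega
      have h11 := orderOf_dvd_of_pow_eq_one h10
      rw [show orderOf ((Nat.card K : ℕ) : ZMod 5) = 5 from ho] at h11
      exact absurd h11 (by norm_num)
    · exact h3 h8

end Cfsg.Agent.H739.PQ.E7
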